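import Mathlib

/-!
Involutory automorphisms with the inverted elements of odd order generating the group: quotients.
-/

set_option autoImplicit false

namespace CfsgLib.InvertedBound

open Subgroup

universe u

variable {G : Type u} [Group G]

/-- The elements of odd order inverted by `α`. -/
def invSet (α : MulAut G) : Set G := {g : G | Odd (orderOf g) ∧ α g = g⁻¹}

/-- An involutory or trivial automorphism with the inverted odd elements generating. -/
structure Good (α : MulAut G) : Prop where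
  invol : ∀ g, α (α g) = g
  gen : closure (invSet α) = ⊤

/-- Invariance of a subgroup. -/
def Invar (α : MulAut G) (K : Subgroup G) : Prop := ∀ k ∈ K, α k ∈ K

theorem one_mem_invSet (α : MulAut G) : (1 : G) ∈ invSet α := by simp [invSet]

theorem card_invSet_pos [Finite G] (α : MulAut G) : 0 < Nat.card (invSet α) :=
  Nat.card_pos_iff.2 ⟨⟨⟨1, one_mem_invSet α⟩⟩, inferInstance⟩

/-- An element of odd order is a power of its square. -/
theorem exists_sq_pow_eq {x : G} (hx : Odd (orderOf x)) : ∃ k : ℕ, (x ^ 2) ^ k = x := by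
  obtain ⟨j, hj⟩ := hx
  refine ⟨j + 1, ?_⟩
  rw [← pow_mul, show 2 * (j + 1) = orderOf x + 1 by omega, pow_succ, pow_orderOf_eq_one, one_mul]

theorem sq_inj_of_odd {x y : G} (hx : Odd (orderOf x)) (hy : Odd (orderOf y)) (h : x ^ 2 = y ^ 2) :
    x = y := by
  obtain ⟨j, hj⟩ := hx.mul hy
  have h1 : ∀ z : G, z ^ (orderOf x * orderOf y) = 1 → z = (z ^ 2) ^ (j + 1) := fun z hz => by
    rw [← pow_mul, show 2 * (j + 1) = orderOf x * orderOf y + 1 by omega, pow_succ, hz, one_mul]
  rw [h1 x (by rw [pow_mul, pow_orderOf_eq_one, one_pow]),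
    h1 y (by rw [mul_comm, pow_mul, pow_orderOf_eq_one, one_pow]), h]

/-- A power of `w` of odd order with the same image wherever the image of `w` has odd order. -/
theorem exists_oddPart [Finite G] (w : G) : ∃ k : ℕ, Odd (orderOf (w ^ k)) ∧
    (∀ d : ℕ, Odd d → d ∣ orderOf w → k % d = 1 % d) ∧ (w ^ k = 1 → ∃ j : ℕ, w ^ 2 ^ j = 1) := by
  obtain ⟨a, b, hb, hab⟩ := Nat.exists_eq_two_pow_mul_odd (orderOf_pos w).ne'
  have hcop : Nat.Coprime (2 ^ a) b := (Nat.coprime_two_left.2 hb).pow_left a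
  obtain ⟨k, hk1, hk2⟩ := Nat.chineseRemainder hcop 0 1
  refine ⟨k, ?_, ?_, ?_⟩
  · refine hb.of_dvd_nat (orderOf_dvd_of_pow_eq_one ?_)
    rw [← pow_mul, ← orderOf_dvd_iff_pow_eq_one, hab]
    exact Nat.mul_dvd_mul_right (Nat.modEq_zero_iff_dvd.1 hk1) b
  · intro d hd hdw
    have hdb : d ∣ b :=
      ((Nat.coprime_two_right.2 hd).pow_right a).dvd_of_dvd_mul_left (hab ▸ hdw)
    exact hk2.of_dvd hdb
  · intro h
    refine ⟨a, ?_⟩
    have h1 : b ∣ k := (dvd_mul_left b (2 ^ a)).trans (hab ▸ orderOf_dvd_of_pow_eq_one h)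
    have h2 : b = 1 := Nat.dvd_one.1 ((hk2.dvd_iff dvd_rfl).1 h1)
    rw [h2, mul_one] at hab
    rw [← hab, pow_orderOf_eq_one]

theorem map_oddPart_eq {H : Type*} [Group H] (f : G →* H) {w : G} {k : ℕ}
    (hk : ∀ d : ℕ, Odd d → d ∣ orderOf w → k % d = 1 % d) (hw : Odd (orderOf (f w))) :
    f (w ^ k) = f w := by
  rw [map_pow, ← pow_mod_orderOf, hk _ hw (orderOf_map_dvd f w), pow_mod_orderOf, pow_one]

theorem map_inv_comm {α : MulAut G} (hα : ∀ g, α (α g) = g) (g : G) :
    α (g * (α g)⁻¹) = (g * (α g)⁻¹)⁻¹ := by simp [hα]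

/-- The automorphism induced on the quotient by an invariant normal subgroup. -/
def qAut (α : MulAut G) (hα : ∀ g, α (α g) = g) (K : Subgroup G) [K.Normal] (hK : Invar α K) :
    MulAut (G ⧸ K) :=
  MonoidHom.toMulEquiv (QuotientGroup.map K K α.toMonoidHom hK)
    (QuotientGroup.map K K α.toMonoidHom hK)
    (by ext g; simp [hα]) (by ext g; simp [hα])

theorem qAut_mk (α : MulAut G) (hα : ∀ g, α (α g) = g) (K : Subgroup G) [K.Normal] (hK : Invar α K)
    (g : G) : qAut α hα K hK (QuotientGroup.mk' K g) = QuotientGroup.mk' K (α g) := rfl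

variable {α : MulAut G}

theorem Good.quot (h : Good α) (K : Subgroup G) [K.Normal] (hK : Invar α K) :
    Good (qAut α h.invol K hK) := by
  refine ⟨fun x => ?_, ?_⟩
  · obtain ⟨g, rfl⟩ := QuotientGroup.mk'_surjective K x
    rw [qAut_mk, qAut_mk, h.invol]
  · rw [← top_le_iff, ← Subgroup.map_top_of_surjective _ (QuotientGroup.mk'_surjective K), ← h.gen,
      MonoidHom.map_closure]
    refine Subgroup.closure_mono ?_
    rintro _ ⟨g, ⟨hg1, hg2⟩, rfl⟩
    exact ⟨hg1.of_dvd_nat (orderOf_map_dvd _ g), by rw [qAut_mk, hg2, map_inv]⟩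

/-- Every inverted odd element of the quotient is the image of one. -/
theorem Good.invSet_quot_subset [Finite G] (h : Good α) (K : Subgroup G) [K.Normal]
    (hK : Invar α K) :
    invSet (qAut α h.invol K hK) ⊆ QuotientGroup.mk' K '' invSet α := by
  set f := QuotientGroup.mk' K with hf
  set β := qAut α h.invol K hK with hβ
  have key : ∀ y ∈ invSet β, y ^ 2 ∈ f '' invSet α := by
    intro y hy
    obtain ⟨g, rfl⟩ := QuotientGroup.mk'_surjective K y
    obtain ⟨k, hk1, hk2, -⟩ := exists_oddPart (g * (α g)⁻¹)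
    have hw : f (g * (α g)⁻¹) = (f g) ^ 2 := by
      have h2 : f (α g) = (f g)⁻¹ := hy.2
      rw [map_mul, map_inv, h2, inv_inv, pow_two]
    refine ⟨(g * (α g)⁻¹) ^ k, ⟨hk1, ?_⟩, ?_⟩
    · rw [map_pow, map_inv_comm h.invol, inv_pow]
    · rw [map_oddPart_eq f hk2, hw]
      rw [hw]
      exact hy.1.of_dvd_nat (orderOf_pow_dvd 2)
  intro y hy
  let sq : invSet β → invSet β := fun z => ⟨(z : G ⧸ K) ^ 2,
    z.2.1.of_dvd_nat (orderOf_pow_dvd 2), by rw [map_pow, z.2.2, inv_pow]⟩
  have hinj : Function.Injective sq := fun a b e =>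
    Subtype.ext (sq_inj_of_odd a.2.1 b.2.1 (congrArg Subtype.val e))
  obtain ⟨z, hz⟩ := Finite.surjective_of_injective hinj ⟨y, hy⟩
  have := key z z.2
  rwa [show (z : G ⧸ K) ^ 2 = y from congrArg Subtype.val hz] at this

theorem Good.card_invSet_quot_le [Finite G] (h : Good α) (K : Subgroup G) [K.Normal]
    (hK : Invar α K) : Nat.card (invSet (qAut α h.invol K hK)) ≤ Nat.card (invSet α) := by
  simp only [Nat.card_coe_set_eq]
  exact (Set.ncard_le_ncard (h.invSet_quot_subset K hK) (Set.toFinite _)).trans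
    (Set.ncard_image_le (Set.toFinite _))

theorem Good.card_invSet_quot_lt [Finite G] (h : Good α) (K : Subgroup G) [K.Normal]
    (hK : Invar α K) {x : G} (hxK : x ∈ K) (hxI : x ∈ invSet α) (hx : x ≠ 1) :
    Nat.card (invSet (qAut α h.invol K hK)) < Nat.card (invSet α) := by
  simp only [Nat.card_coe_set_eq]
  have hsub : invSet (qAut α h.invol K hK) ⊆ QuotientGroup.mk' K '' (invSet α \ {x}) := by
    intro y hy
    obtain ⟨g, hg, rfl⟩ := h.invSet_quot_subset K hK hy
    by_cases hgx : g = x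
    · refine ⟨1, ⟨one_mem_invSet α, fun e => hx (Set.mem_singleton_iff.1 e).symm⟩, ?_⟩
      rw [hgx, map_one]
      exact ((QuotientGroup.eq_one_iff x).2 hxK).symm
    · exact ⟨g, ⟨hg, hgx⟩, rfl⟩
  exact ((Set.ncard_le_ncard hsub (Set.toFinite _)).trans
    (Set.ncard_image_le (Set.toFinite _))).trans_lt (Set.ncard_sdiff_singleton_lt_of_mem hxI)

theorem card_eq_mul_quot [Finite G] (K : Subgroup G) [K.Normal] :
    Nat.card G = Nat.card (G ⧸ K) * Nat.card K := K.card_eq_card_quotient_mul_card_subgroup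

theorem card_le_of_map [Finite G] (K : Subgroup G) [K.Normal] (H : Subgroup G) :
    Nat.card H ≤ Nat.card (H.map (QuotientGroup.mk' K)) * Nat.card K := by
  set φ : H →* H.map (QuotientGroup.mk' K) := (QuotientGroup.mk' K).subgroupMap H with hφ
  have hsur : Function.Surjective φ := MonoidHom.subgroupMap_surjective _ H
  have h1 : Nat.card H = Nat.card (H.map (QuotientGroup.mk' K)) * Nat.card φ.ker := by
    rw [φ.ker.card_eq_card_quotient_mul_card_subgroup,
      Nat.card_congr (QuotientGroup.quotientKerEquivOfSurjective φ hsur).toEquiv]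
  rw [h1]
  refine Nat.mul_le_mul_left _ (Nat.card_le_card_of_injective
    (fun k => (⟨((k : H) : G), (QuotientGroup.eq_one_iff _).1 (congrArg Subtype.val k.2)⟩ : K)) ?_)
  exact fun a b e => Subtype.ext (Subtype.ext (congrArg Subtype.val e :))

end CfsgLib.InvertedBound
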