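import Cfsg.Agent.InvertedBound.MinNormal
import Cfsg.Agent.BaerSuzuki.Basic

/-!
The order of a group is bounded by the number of odd elements inverted by an involutory automorphism
when these generate the group.
-/

set_option autoImplicit false

namespace CfsgLib.InvertedBound

open Subgroup
open scoped commutatorElement

universe u

variable {G : Type u} [Group G] [Finite G] {α : MulAut G}

/-- `B` bounds the orders for at most `m` inverted odd elements. -/
def Bounds (B m : ℕ) : Prop :=
  ∀ (G : Type u) [Group G] [Finite G] (α : MulAut G), Good α → Nat.card (invSet α) ≤ m → Nat.card G ≤ B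

theorem card_le_of_meets {B m : ℕ} (hB : Bounds.{u} B m) (h : Good α)
    (hm : Nat.card (invSet α) ≤ m + 1) (K : Subgroup G) [K.Normal] (hK : Invar α K) {k : ℕ}
    (hk : Nat.card K ≤ k) {x : G} (hxK : x ∈ K) (hxI : x ∈ invSet α) (hx : x ≠ 1) :
    Nat.card G ≤ B * k := by
  rw [card_eq_mul_quot K]
  refine Nat.mul_le_mul (hB _ _ (h.quot K hK) ?_) hk
  have := h.card_invSet_quot_lt K hK hxK hxI hx
  omega

theorem card_le_of_central {B m : ℕ} (hB : Bounds.{u} B m) (h : Good α)
    (hm : Nat.card (invSet α) ≤ m + 1) {x : G} (hxZ : x ∈ center G) (hxI : x ∈ invSet α)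
    (hx : x ≠ 1) : Nat.card G ≤ B * (m + 1) := by
  let K : Subgroup G :=
    { carrier := {y | y ∈ center G ∧ y ∈ invSet α}
      one_mem' := ⟨one_mem _, one_mem_invSet α⟩
      mul_mem' := fun {a b} ha hb => by
        have hc : Commute a b := (mem_center_iff.1 ha.1 b).symm
        refine ⟨mul_mem ha.1 hb.1, (ha.2.1.mul hb.2.1).of_dvd_nat hc.orderOf_mul_dvd_mul_orderOf, ?_⟩
        rw [map_mul, ha.2.2, hb.2.2, ← mul_inv_rev, hc.eq]
      inv_mem' := fun {a} ha => ⟨inv_mem ha.1, by rw [orderOf_inv]; exact ha.2.1, by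
        rw [map_inv, ha.2.2]⟩ }
  have hKn : K.Normal := ⟨fun y hy g => by
    rw [(mem_center_iff.1 hy.1 g : g * y = y * g), mul_inv_cancel_right]; exact hy⟩
  have hKi : Invar α K := fun y hy => by
    have e : α y = y⁻¹ := hy.2.2
    rw [e]
    exact K.inv_mem hy
  refine card_le_of_meets hB h hm K hKi ?_ (x := x) ⟨hxZ, hxI⟩ hxI hx
  exact (Nat.card_le_card_of_injective (fun y : K => (⟨y, y.2.2⟩ : invSet α))
    fun a b e => Subtype.ext (congrArg Subtype.val e :)).trans hm

theorem card_le_of_comm (h : Good α) (hab : ∀ a b : G, Commute a b) :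
    Nat.card G ≤ Nat.card (invSet α) := by
  let K : Subgroup G :=
    { carrier := invSet α
      one_mem' := one_mem_invSet α
      mul_mem' := fun {a b} ha hb =>
        ⟨(ha.1.mul hb.1).of_dvd_nat (hab a b).orderOf_mul_dvd_mul_orderOf, by
          rw [map_mul, ha.2, hb.2, ← mul_inv_rev, (hab a b).eq]⟩
      inv_mem' := fun {a} ha => ⟨by rw [orderOf_inv]; exact ha.1, by rw [map_inv, ha.2]⟩ }
  have hK : K = ⊤ := top_le_iff.1 (h.gen ▸ (closure_le K).2 fun _ hx => hx)
  exact Nat.card_le_card_of_injective (fun g : G => (⟨g, (hK.ge (mem_top g) : g ∈ K)⟩ : invSet α))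
    fun a b e => congrArg Subtype.val e

/-- A `2`-element of a normal subgroup with central commutators is central when `O₂(G)` is. -/
theorem two_elem_mem_center (hO : Cfsg.pCore 2 G ≤ center G) {P : Subgroup G} [P.Normal]
    (hP : ∀ a ∈ P, ∀ b ∈ P, ⁅a, b⁆ ∈ center G) {p : G} (hp : p ∈ P) {j : ℕ}
    (hj : p ^ 2 ^ j = 1) : p ∈ center G := by
  refine hO (BaerSuzuki.mem_pCore p fun g => ?_)
  set q := g * p * g⁻¹ with hq
  set c := ⁅q, p⁆ with hc
  have hcZ : c ∈ center G := hP q (Normal.conj_mem inferInstance p hp g) p hp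
  have hcn : ∀ z, Commute z c := fun z => mem_center_iff.1 hcZ z
  have hqj : q ^ 2 ^ j = 1 := by rw [hq, conj_pow, hj, mul_one, mul_inv_cancel]
  have hcon : q * p * q⁻¹ = c * p := by rw [hc, commutatorElement_def]; group
  have hcj : c ^ 2 ^ j = 1 := by
    have := congrArg (· ^ 2 ^ j) hcon
    simp only [conj_pow, hj, mul_one, mul_inv_cancel, (hcn p).symm.mul_pow] at this
    exact this.symm
  have hzp : ∀ {z : G}, z ^ 2 ^ j = 1 → IsPGroup 2 (zpowers z) := by
    intro z hz
    rw [isPGroup_iff_pow_pow_eq_one]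
    rintro ⟨d, hd⟩
    obtain ⟨n, rfl⟩ := mem_zpowers_iff.1 hd
    refine ⟨j, Subtype.ext ?_⟩
    show (z ^ n) ^ 2 ^ j = 1
    rw [← zpow_natCast, ← zpow_mul, mul_comm, zpow_mul, zpow_natCast, hz, one_zpow]
  have hA : IsPGroup 2 (zpowers p ⊔ zpowers c : Subgroup G) :=
    (hzp hj).to_sup_of_normal_right' (hzp hcj) (zpowers_le.2 (mem_normalizer_iff.2 fun x => by
      constructor
      · intro hx
        obtain ⟨n, rfl⟩ := mem_zpowers_iff.1 hx
        rw [((hcn p).zpow_right n).eq, mul_inv_cancel_right]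
        exact zpow_mem (mem_zpowers c) n
      · intro hx
        obtain ⟨n, hn⟩ := mem_zpowers_iff.1 hx
        have : x = c ^ n := by
          rw [show x = p⁻¹ * (p * x * p⁻¹) * p by group, ← hn, mul_assoc,
            ← ((hcn p).zpow_right n).eq, inv_mul_cancel_left]
        exact this ▸ zpow_mem (mem_zpowers c) n))
  have hpA : p ∈ zpowers p ⊔ zpowers c := mem_sup_left (mem_zpowers p)
  have hcA : c ∈ zpowers p ⊔ zpowers c := mem_sup_right (mem_zpowers c)
  have hqN : zpowers q ≤ normalizer ((zpowers p ⊔ zpowers c : Subgroup G) : Set G) := by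
    rw [zpowers_le]
    have hmap : (zpowers p ⊔ zpowers c).map (MulAut.conj q).toMonoidHom = zpowers p ⊔ zpowers c := by
      refine Subgroup.eq_of_le_of_card_ge ?_
        (Subgroup.card_map_of_injective (MulAut.conj q).injective).ge
      rw [Subgroup.map_sup, MonoidHom.map_zpowers, MonoidHom.map_zpowers]
      refine sup_le (zpowers_le.2 ?_) (zpowers_le.2 ?_)
      · show q * p * q⁻¹ ∈ _
        rw [hcon]; exact mul_mem hcA hpA
      · show q * c * q⁻¹ ∈ _
        rw [(hcn q).eq, mul_inv_cancel_right]; exact hcA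
    refine mem_normalizer_iff.2 fun x => ⟨fun hx => hmap.le ⟨x, hx, rfl⟩, fun hx => ?_⟩
    obtain ⟨y, hy, e⟩ := hmap.ge hx
    exact (MulAut.conj q).injective e ▸ hy
  refine ((hzp hqj).to_sup_of_normal_right' hA hqN).to_le ((closure_le _).2 ?_)
  rintro z (rfl | rfl)
  · exact mem_sup_right hpA
  · exact mem_sup_left (mem_zpowers q)

/-- With no inverted odd element in a normal invariant `K`, `α` acts on it modulo `O₂(G)` trivially. -/
theorem twisted_mem_pCore (h : Good α) (K : Subgroup G) [K.Normal] (hK : Invar α K)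
    (hI : ∀ x ∈ K, x ∈ invSet α → x = 1) {k : G} (hk : k ∈ K) :
    k * (α k)⁻¹ ∈ Cfsg.pCore 2 G := by
  classical
  have htwo : ∀ a ∈ K, ∃ j : ℕ, (a * (α a)⁻¹) ^ 2 ^ j = 1 := by
    intro a ha
    obtain ⟨n, hn1, -, hn3⟩ := exists_oddPart (a * (α a)⁻¹)
    refine hn3 (hI _ (K.pow_mem (K.mul_mem ha (K.inv_mem (hK a ha))) n) ⟨hn1, ?_⟩)
    rw [map_pow, map_inv_comm h.invol, inv_pow]
  set γ := rAut α h.invol K hK with hγ
  by_cases hγ1 : γ = 1
  · have e : γ ⟨k, hk⟩ = ⟨k, hk⟩ := by rw [hγ1]; rfl
    rw [show α k = k from congrArg Subtype.val e, mul_inv_cancel]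
    exact one_mem _
  let E := K ⋊[(zpowers γ).subtype] zpowers γ
  have : Finite E := Finite.of_equiv _ (SemidirectProduct.equivProd (φ := (zpowers γ).subtype)).symm
  set t : E := SemidirectProduct.inr ⟨γ, mem_zpowers γ⟩ with ht
  have hγ2 : γ ^ 2 = 1 := by
    ext x
    rw [pow_two, MulAut.mul_apply, MulAut.one_apply, coe_rAut, coe_rAut, h.invol]
  have ht2 : orderOf t = 2 := by
    refine orderOf_eq_prime ?_ fun e => hγ1 ?_
    · rw [ht, ← map_pow]
      convert map_one (SemidirectProduct.inr : zpowers γ →* E)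
      exact Subtype.ext hγ2
    · have := congrArg (fun z : E => (z.right : MulAut K)) e
      simpa [ht] using this
  have hconj : ∀ a : K, t * SemidirectProduct.inl a * t⁻¹ = SemidirectProduct.inl (γ a) := fun a => by
    rw [ht, ← map_inv, ← SemidirectProduct.inl_aut]; rfl
  have hshift : ∀ a : K, SemidirectProduct.inl a * t * (SemidirectProduct.inl a)⁻¹ =
      SemidirectProduct.inl (a * (γ a)⁻¹) * t := by
    intro a
    rw [map_mul, map_inv, ← hconj, mul_inv_rev, mul_inv_rev, inv_inv]; group
  have htO : t ∈ Cfsg.pCore 2 E := by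
    refine BaerSuzuki.involution_mem_pCore ht2 fun e => ?_
    obtain ⟨j, hj⟩ := htwo e.left e.left.2
    refine ⟨j, ?_⟩
    have hc : (SemidirectProduct.inr e.right : E) * t = t * SemidirectProduct.inr e.right := by
      rw [ht, ← map_mul, ← map_mul, IsMulCommutative.is_comm.comm e.right]
    have he : e * t * e⁻¹ = SemidirectProduct.inl (e.left * (γ e.left)⁻¹) * t := by
      conv_lhs => rw [← SemidirectProduct.inl_left_mul_inr_right e]
      rw [mul_assoc (SemidirectProduct.inl e.left), hc, mul_inv_rev, ← hshift]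
      group
    rw [he, ← mul_assoc, show t * SemidirectProduct.inl (e.left * (γ e.left)⁻¹) * t =
      SemidirectProduct.inl (γ (e.left * (γ e.left)⁻¹)) by
        rw [← hconj, show t⁻¹ = t from inv_eq_of_mul_eq_one_right
          (by rw [← pow_two, ← ht2, pow_orderOf_eq_one])], ← map_pow, ← map_pow]
    convert map_one (SemidirectProduct.inl : K →* E)
    refine (congrArg γ ?_).trans (map_one γ)
    exact Subtype.ext hj
  have hw : (SemidirectProduct.inl (⟨k, hk⟩ * (γ ⟨k, hk⟩)⁻¹) : E) ∈ Cfsg.pCore 2 E := by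
    rw [show (SemidirectProduct.inl (⟨k, hk⟩ * (γ ⟨k, hk⟩)⁻¹) : E) =
      SemidirectProduct.inl ⟨k, hk⟩ * t * (SemidirectProduct.inl ⟨k, hk⟩)⁻¹ * t⁻¹ by
        rw [hshift, mul_inv_cancel_right]]
    exact mul_mem ((Cfsg.pCore_normal 2 E).conj_mem t htO _) (inv_mem htO)
  have hN : (Cfsg.pCore 2 E).comap SemidirectProduct.inl ≤ Cfsg.pCore 2 K :=
    BaerSuzuki.normal_pgroup_le_pCore ((Cfsg.pCore_normal 2 E).comap _)
      ((isPGroup_pCore_two (G := E)).comap_of_injective _ SemidirectProduct.inl_injective)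
  exact LocalP.map_pCore_le_of_normal K ⟨_, hN hw, rfl⟩

/-- The bound on a minimal invariant normal subgroup of the central quotient. -/
def minBound (B m : ℕ) : ℕ := max ((m + 1).factorial * (m + 1)) (max B (m + 1))

theorem exists_bound_core (m B : ℕ) (hB : Bounds.{u} B m) :
    ∃ N : ℕ, ∀ (G : Type u) [Group G] [Finite G] (α : MulAut G), Good α →
      Nat.card (invSet α) ≤ m + 1 → Cfsg.pCore 2 G ≤ center G → Nat.card G ≤ N := by
  obtain ⟨B', hB'⟩ := exists_bound_split.{u} (m + 1).factorial
  set cV := minBound B' m with hcV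
  set k := commBound cV (m + 1) with hk
  refine ⟨(B + 1) * (m + 1) * (k + 1), fun G _ _ α h hm hO => ?_⟩
  have hcentral : ∀ b, b ≤ B * (m + 1) → b ≤ (B + 1) * (m + 1) * (k + 1) := fun b hb =>
    hb.trans ((Nat.mul_le_mul_right _ (Nat.le_succ B)).trans (Nat.le_mul_of_pos_right _ k.succ_pos))
  have hmeets : ∀ b, b ≤ B * (m + 1) * k → b ≤ (B + 1) * (m + 1) * (k + 1) := fun b hb =>
    hb.trans (Nat.mul_le_mul (Nat.mul_le_mul_right _ (Nat.le_succ B)) (Nat.le_succ k))
  have hmeets' : ∀ b, b ≤ B * k → b ≤ (B + 1) * (m + 1) * (k + 1) := fun b hb =>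
    hmeets b (hb.trans (Nat.mul_le_mul_right k (Nat.le_mul_of_pos_right B m.succ_pos)))
  by_cases hab : ∀ a b : G, Commute a b
  · refine ((card_le_of_comm h hab).trans hm).trans ?_
    exact (Nat.le_mul_of_pos_left _ B.succ_pos).trans (Nat.le_mul_of_pos_right _ k.succ_pos)
  set Z := center G with hZ
  have hZi : Invar α Z := invar_char
  set f := QuotientGroup.mk' Z with hf
  have hsur : Function.Surjective f := QuotientGroup.mk'_surjective Z
  have hf1 : ∀ {g : G}, f g = 1 ↔ g ∈ Z := fun {g} => QuotientGroup.eq_one_iff g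
  have hnt : Nontrivial (G ⧸ Z) := by
    by_contra hn
    rw [not_nontrivial_iff_subsingleton] at hn
    exact hab fun a b => (mem_center_iff.1 (hf1.1 (Subsingleton.elim (f b) 1)) a)
  set β := qAut α h.invol Z hZi with hβ
  have h' : Good β := h.quot Z hZi
  have hm' : Nat.card (invSet β) ≤ m + 1 := (h.card_invSet_quot_le Z hZi).trans hm
  obtain ⟨V, hVn, hVi, hV⟩ := exists_minInv β
  set P := V.comap f with hP
  have hPn : P.Normal := hVn.comap f
  have hPi : Invar α P := Invar.comap_quot h.invol hZi hVi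
  have hPmap : P.map f = V := Subgroup.map_comap_eq_self_of_surjective hsur V
  have hoddV : (∀ a ∈ P, ∀ b ∈ P, ⁅a, b⁆ ∈ Z) → ∀ v ∈ V, Odd (orderOf v) := by
    intro hPP v hv
    obtain ⟨p, rfl⟩ := hsur v
    obtain ⟨a, b, hb, hab'⟩ := Nat.exists_eq_two_pow_mul_odd (orderOf_pos p).ne'
    have hpb : p ^ b ∈ Z := two_elem_mem_center hO hPP (P.pow_mem hv b) (j := a)
      (by rw [← pow_mul, mul_comm, ← hab', pow_orderOf_eq_one])
    exact hb.of_dvd_nat (orderOf_dvd_of_pow_eq_one (by rw [← map_pow]; exact hf1.2 hpb))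
  set K0 := ⁅P, (⊤ : Subgroup G)⁆ with hK0
  have hK0n : K0.Normal := Subgroup.commutator_normal _ _
  have hK0i : Invar α K0 := hPi.commutator invar_top
  have hK0P : K0 ≤ P := Subgroup.commutator_le_left P ⊤
  have hK0card : Nat.card V ≤ cV → Nat.card K0 ≤ k := fun hc =>
    card_commutator_le P h.gen Z le_rfl (by rwa [hPmap]) hm
  by_cases hcen : V ≤ center (G ⧸ Z)
  · have hPZ : ∀ a ∈ P, ∀ b : G, ⁅a, b⁆ ∈ Z := by
      intro a ha b
      refine hf1.1 ?_
      rw [map_commutatorElement, commutatorElement_eq_one_iff_commute]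
      exact (mem_center_iff.1 (hcen ha) (f b)).symm
    have hoV := hoddV fun a ha b _ => hPZ a ha b
    by_cases hplus : ∀ v ∈ V, β v = v
    · -- centralized: a commutator is central and inverted
      obtain ⟨v, hv, hv1⟩ := (V.bot_or_exists_ne_one).resolve_left hV.1
      obtain ⟨p, rfl⟩ := hsur v
      obtain ⟨n, hn1, hn2, -⟩ := exists_oddPart p
      set p' := p ^ n with hp'
      have hp'v : f p' = f p := map_oddPart_eq f hn2 (hoV _ hv)
      have hp'P : p' ∈ P := P.pow_mem hv n
      obtain ⟨x, hxI, hx⟩ : ∃ x ∈ invSet α, ⁅p', x⁆ ≠ 1 := by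
        by_contra hno
        push Not at hno
        refine hv1 ?_
        rw [← hp'v, hf1]
        have hle : closure (invSet α) ≤ centralizer ({p'} : Set G) := (closure_le _).2 fun x hx =>
          mem_centralizer_singleton_iff.2 (commutatorElement_eq_one_iff_commute.1 (hno x hx)).symm.eq
        exact mem_center_iff.2 fun g => mem_centralizer_singleton_iff.1 (hle (h.gen.ge (mem_top g)))
      set z := ⁅p', x⁆ with hz
      have hzZ : z ∈ Z := hPZ p' hp'P x
      have hzc : ∀ g, Commute g z := fun g => mem_center_iff.1 hzZ g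
      have hpow : ∀ i : ℕ, ⁅p' ^ i, x⁆ = z ^ i := by
        intro i
        induction i with
        | zero => simp
        | succ i ih => rw [pow_succ, comm_mul_left', ← hz, (hzc _).eq, mul_inv_cancel_right, ih, ← pow_succ']
      have hzodd : Odd (orderOf z) := hn1.of_dvd_nat (orderOf_dvd_of_pow_eq_one (by
        rw [← hpow, pow_orderOf_eq_one, commutatorElement_one_left]))
      have hzα : α z = z⁻¹ := by
        have hzero : f (p'⁻¹ * α p') = 1 := by
          rw [map_mul, map_inv, hp'v]
          show (f p)⁻¹ * β (f p') = 1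
          rw [hp'v, hplus _ hv, inv_mul_cancel]
        have hzc' := mem_center_iff.1 (hf1.1 hzero)
        rw [hz, map_commutatorElement, hxI.2]
        have e1 : ⁅α p', x⁻¹⁆ = ⁅p', x⁻¹⁆ := by
          rw [show α p' = p' * (p'⁻¹ * α p') by group, comm_mul_left',
            (commutatorElement_eq_one_iff_commute (g₁ := p'⁻¹ * α p') (g₂ := x⁻¹)).2
              (hzc' x⁻¹).symm, mul_one, mul_inv_cancel, one_mul]
        have e2 : (1 : G) = z * (x * ⁅p', x⁻¹⁆ * x⁻¹) := by
          rw [hz, ← comm_mul_right', mul_inv_cancel, commutatorElement_one_right]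
        rw [e1, ← hz]
        have e3 : x * ⁅p', x⁻¹⁆ * x⁻¹ = ⁅p', x⁻¹⁆ := by
          rw [(mem_center_iff.1 (hPZ p' hp'P x⁻¹) x : x * ⁅p', x⁻¹⁆ = ⁅p', x⁻¹⁆ * x),
            mul_inv_cancel_right]
        rw [e3] at e2
        exact eq_inv_of_mul_eq_one_right e2.symm
      exact hcentral _ (card_le_of_central hB h hm hzZ ⟨hzodd, hzα⟩ hx)
    · -- inverted
      have hinvV : ∀ v ∈ V, β v = v⁻¹ := by
        intro v hv
        by_contra hne
        refine hplus ?_
        set u := v * β v with hu
        have huV : u ∈ V := V.mul_mem hv (hVi v hv)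
        have hufix : β u = u := by
          rw [hu, map_mul, h'.invol]
          exact (mem_center_iff.1 (hcen hv) (β v))
        have hWn : (zpowers u).Normal := ⟨fun y hy g => by
          rw [(mem_center_iff.1 (hcen ((zpowers_le.2 huV) hy)) g : g * y = y * g), mul_inv_cancel_right]
          exact hy⟩
        have hWi : Invar β (zpowers u) := fun y hy => by
          obtain ⟨i, rfl⟩ := mem_zpowers_iff.1 hy
          rw [map_zpow, hufix]
          exact zpow_mem (mem_zpowers u) i
        rcases hV.2 _ hWn hWi (zpowers_le.2 huV) with e | e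
        · exact absurd (eq_inv_of_mul_eq_one_right (zpowers_eq_bot.1 e)) hne
        · intro w hw
          obtain ⟨i, rfl⟩ := mem_zpowers_iff.1 (e ▸ hw)
          rw [map_zpow, hufix]
      have hVcard : Nat.card V ≤ cV := by
        refine le_trans (le_trans ?_ hm') ((le_max_right _ _).trans (le_max_right _ _))
        exact Nat.card_le_card_of_injective (fun v : V => (⟨v, hoV v v.2, hinvV v v.2⟩ : invSet β))
          fun a b e => Subtype.ext (congrArg Subtype.val e :)
      obtain ⟨v, hv, hv1⟩ := (V.bot_or_exists_ne_one).resolve_left hV.1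
      obtain ⟨g, hgI, rfl⟩ := h.invSet_quot_subset Z hZi
        (show v ∈ invSet β from ⟨hoV v hv, hinvV v hv⟩)
      have hg1 : g ∉ Z := fun e => hv1 (hf1.2 e)
      have hgne : g ≠ 1 := fun e => hg1 (e ▸ Z.one_mem)
      by_cases hgK : g ∈ K0
      · exact hmeets' _ (card_le_of_meets hB h hm K0 hK0i (hK0card hVcard) hgK hgI hgne)
      · refine hmeets _ ?_
        rw [card_eq_mul_quot K0]
        refine Nat.mul_le_mul ?_ (hK0card hVcard)
        refine card_le_of_central hB (h.quot K0 hK0i) ((h.card_invSet_quot_le K0 hK0i).trans hm)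
          (x := QuotientGroup.mk' K0 g) ?_
          ⟨hgI.1.of_dvd_nat (orderOf_map_dvd _ g), by rw [qAut_mk, hgI.2, map_inv]⟩
          fun e => hgK ((QuotientGroup.eq_one_iff g).1 e)
        refine mem_center_iff.2 fun y => ?_
        obtain ⟨y, rfl⟩ := QuotientGroup.mk'_surjective K0 y
        refine (commutatorElement_eq_one_iff_commute.1 ?_).symm.eq
        rw [← map_commutatorElement]
        exact (QuotientGroup.eq_one_iff _).2 (Subgroup.commutator_mem_commutator hv (mem_top y))
  · have hVZ : V ⊓ center (G ⧸ Z) = ⊥ := by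
      rcases hV.2 (V ⊓ center (G ⧸ Z)) inferInstance (hVi.inf invar_char) inf_le_left with e | e
      · exact e
      · exact absurd (inf_eq_left.1 e) hcen
    have hVcard : Nat.card V ≤ cV := by
      by_cases hVab : ∀ a b : V, Commute a b
      · refine le_trans (card_abelian_odd_le h' hm' V hVi hVZ hVab (hoddV fun a ha b hb => hf1.1 ?_))
          (le_max_left _ _)
        rw [map_commutatorElement, commutatorElement_eq_one_iff_commute]
        exact congrArg Subtype.val (hVab ⟨f a, ha⟩ ⟨f b, hb⟩).eq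
      · refine le_trans ?_ ((le_max_left B' (m + 1)).trans (le_max_right _ _))
        exact hB' V (rAut β h'.invol V hVi) (fun x => Subtype.ext (h'.invol x))
          (hV.split h'.invol hVi hVab) (card_fixedPts_rAut h' hm' V hVi hVZ)
    by_cases hI : ∃ x ∈ K0, x ∈ invSet α ∧ x ≠ 1
    · obtain ⟨x, hxK, hxI, hx⟩ := hI
      exact hmeets' _ (card_le_of_meets hB h hm K0 hK0i (hK0card hVcard) hxK hxI hx)
    · push Not at hI
      exfalso
      have hVK : V = K0.map f := by
        have hle : K0.map f ≤ V := hPmap ▸ Subgroup.map_mono hK0P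
        rcases hV.2 (K0.map f) (hK0n.map f hsur) (hK0i.map_quot h.invol hZi) hle with e | e
        · refine absurd (fun v hv => ?_) hcen
          rw [hK0, Subgroup.map_commutator, hPmap, Subgroup.map_top_of_surjective f hsur,
            Subgroup.commutator_eq_bot_iff_le_centralizer, Subgroup.coe_top,
            Subgroup.centralizer_univ] at e
          exact e hv
        · exact e.symm
      have hfixV : ∀ v ∈ V, β v = v := by
        intro v hv
        rw [hVK] at hv
        obtain ⟨a, ha, rfl⟩ := hv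
        have h1 := hf1.2 (hO (twisted_mem_pCore h K0 hK0i hI ha))
        rw [map_mul, map_inv, mul_inv_eq_one] at h1
        exact h1.symm
      refine hcen fun v hv => ?_
      have hle : closure (invSet β) ≤ centralizer ({v} : Set (G ⧸ Z)) := by
        refine (closure_le _).2 fun x hx => ?_
        have h1 := hfixV _ (Normal.conj_mem inferInstance v hv x)
        rw [map_mul, map_mul, map_inv, hx.2, hfixV v hv, inv_inv] at h1
        have h4 : Commute (x ^ 2) v := by
          show x ^ 2 * v = v * x ^ 2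
          calc x ^ 2 * v = x * (x * v * x⁻¹) * x := by rw [pow_two]; group
            _ = x * (x⁻¹ * v * x) * x := by rw [h1]
            _ = v * x ^ 2 := by rw [pow_two]; group
        obtain ⟨i, hi⟩ := exists_sq_pow_eq hx.1
        exact mem_centralizer_singleton_iff.2 (hi ▸ h4.pow_left i).eq
      exact mem_center_iff.2 fun g => mem_centralizer_singleton_iff.1 (hle (h'.gen.ge (mem_top g)))

theorem exists_bounds (m : ℕ) : ∃ B : ℕ, Bounds.{u} B m := by
  induction m with
  | zero =>
    exact ⟨0, fun G _ _ α _ hm => absurd (card_invSet_pos α) (by omega)⟩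
  | succ m ih =>
    obtain ⟨B, hB⟩ := ih
    obtain ⟨N, hN⟩ := exists_bound_core m B hB
    refine ⟨N * twoBound (m + 1), fun G _ _ α h hm => ?_⟩
    set Q := Cfsg.pCore 2 G with hQ
    set W := ⁅Q, (⊤ : Subgroup G)⁆ with hW
    have hQc : Q.Characteristic := LocalP.pCore_characteristic 2
    have hWn : W.Normal := Subgroup.commutator_normal _ _
    have hWi : Invar α W := (invar_char (H := Q)).commutator invar_top
    have hWQ : W ≤ Q := Subgroup.commutator_le_left Q ⊤
    rw [card_eq_mul_quot W]
    refine Nat.mul_le_mul (hN _ _ (h.quot W hWi) ((h.card_invSet_quot_le W hWi).trans hm) ?_)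
      (card_commutator_pCore_le h hm)
    set f := QuotientGroup.mk' W with hf
    intro y hy
    obtain ⟨g, rfl⟩ := QuotientGroup.mk'_surjective W y
    have hgQ : g ∈ Q := by
      refine BaerSuzuki.normal_pgroup_le_pCore ((Cfsg.pCore_normal 2 (G ⧸ W)).comap f) ?_ hy
      refine isPGroup_pCore_two.comap_of_ker_isPGroup f ?_
      rw [hf, QuotientGroup.ker_mk']
      exact isPGroup_pCore_two.to_le hWQ
    refine mem_center_iff.2 fun z => ?_
    obtain ⟨z, rfl⟩ := QuotientGroup.mk'_surjective W z
    refine (commutatorElement_eq_one_iff_commute.1 ?_).symm.eq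
    rw [← map_commutatorElement]
    exact (QuotientGroup.eq_one_iff _).2 (Subgroup.commutator_mem_commutator hgQ (mem_top z))

end CfsgLib.InvertedBound
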