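import Cfsg.Agent.InvertedBound.Semisimple

/-!
Minimal invariant normal subgroups: bounded order, or abelian of odd order.
-/

set_option autoImplicit false

namespace CfsgLib.InvertedBound

open Subgroup
open scoped commutatorElement

universe u

variable {G : Type u} [Group G] [Finite G] {α : MulAut G}

/-- The restriction to an invariant subgroup. -/
def rAut (α : MulAut G) (hα : ∀ g, α (α g) = g) (V : Subgroup G) (hV : Invar α V) : MulAut V where
  toFun x := ⟨α x, hV x x.2⟩
  invFun x := ⟨α x, hV x x.2⟩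
  left_inv x := Subtype.ext (hα x)
  right_inv x := Subtype.ext (hα x)
  map_mul' a b := Subtype.ext (map_mul α _ _)

omit [Finite G] in
theorem coe_rAut (hα : ∀ g, α (α g) = g) (V : Subgroup G) (hV : Invar α V) (x : V) :
    ((rAut α hα V hV x : V) : G) = α x := rfl

/-- Minimality among the invariant normal subgroups. -/
def MinInv (α : MulAut G) (V : Subgroup G) : Prop :=
  V ≠ ⊥ ∧ ∀ W : Subgroup G, W.Normal → Invar α W → W ≤ V → W = ⊥ ∨ W = V

theorem exists_minInv [Nontrivial G] (α : MulAut G) :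
    ∃ V : Subgroup G, V.Normal ∧ Invar α V ∧ MinInv α V := by
  obtain ⟨V, ⟨hVn, hVi, hVne⟩, hmin⟩ := Set.Finite.exists_minimal
    (Set.toFinite {V : Subgroup G | V.Normal ∧ Invar α V ∧ V ≠ ⊥})
    ⟨⊤, inferInstance, invar_top, top_ne_bot⟩
  refine ⟨V, hVn, hVi, hVne, fun W hWn hWi hWV => ?_⟩
  by_cases hW : W = ⊥
  · exact Or.inl hW
  · exact Or.inr (le_antisymm hWV (hmin ⟨hWn, hWi, hW⟩ hWV))

omit [Finite G] in
theorem MinInv.char_eq (hα : ∀ g, α (α g) = g) {V : Subgroup G} [V.Normal] (hVi : Invar α V)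
    (hV : MinInv α V) (T : Subgroup V) [T.Characteristic] : T = ⊥ ∨ T = ⊤ := by
  have hi : Invar α (T.map V.subtype) := by
    rintro _ ⟨x, hx, rfl⟩
    exact ⟨rAut α hα V hVi x, (invar_char (α := rAut α hα V hVi)) x hx, rfl⟩
  rcases hV.2 (T.map V.subtype) inferInstance hi (Subgroup.map_subtype_le T) with h | h
  · exact Or.inl ((Subgroup.map_eq_bot_iff_of_injective T V.subtype_injective).1 h)
  · refine Or.inr (Subgroup.map_injective V.subtype_injective ?_)
    rw [h, ← MonoidHom.range_eq_map, Subgroup.range_subtype]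

theorem exists_minNormal_le {V : Type u} [Group V] [Finite V] {N : Subgroup V} [N.Normal] (hN : N ≠ ⊥) :
    ∃ n ≤ N, n.Normal ∧ n ≠ ⊥ ∧ ∀ W : Subgroup V, W.Normal → W ≤ n → W = ⊥ ∨ W = n := by
  obtain ⟨n, ⟨h1, h2, h3⟩, hmin⟩ := Set.Finite.exists_minimal
    (Set.toFinite {n : Subgroup V | n.Normal ∧ n ≠ ⊥ ∧ n ≤ N}) ⟨N, inferInstance, hN, le_rfl⟩
  refine ⟨n, h3, h1, h2, fun W hW hWn => ?_⟩
  by_cases h : W = ⊥
  · exact Or.inl h
  · exact Or.inr (le_antisymm hWn (hmin ⟨hW, h, hWn.trans h3⟩ hWn))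

omit [Finite G] in
theorem characteristic_sSup_of_invariant {V : Type u} [Group V] {S : Set (Subgroup V)}
    (h : ∀ (φ : V ≃* V), ∀ n ∈ S, n.map φ.toMonoidHom ∈ S) : (sSup S).Characteristic := by
  refine Subgroup.characteristic_iff_map_le.2 fun φ => ?_
  rw [Subgroup.map_le_iff_le_comap]
  exact sSup_le fun n hn => Subgroup.map_le_iff_le_comap.1 (le_sSup (h φ n hn))

/-- A nonabelian minimal invariant normal subgroup is semisimple. -/
theorem MinInv.split (hα : ∀ g, α (α g) = g) {V : Subgroup G} [V.Normal] (hVi : Invar α V)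
    (hV : MinInv α V) (hnab : ¬ ∀ a b : V, Commute a b) : Split V := by
  have hnt : Nontrivial V := (Subgroup.nontrivial_iff_ne_bot V).2 hV.1
  set S : Set (Subgroup V) :=
    {n | n.Normal ∧ n ≠ ⊥ ∧ ∀ W : Subgroup V, W.Normal → W ≤ n → W = ⊥ ∨ W = n} with hS
  have hmap : ∀ (φ : V ≃* V), ∀ n ∈ S, n.map φ.toMonoidHom ∈ S := by
    rintro φ n ⟨h1, h2, h3⟩
    refine ⟨h1.map _ φ.surjective, fun e => h2 ?_, fun W hW hWn => ?_⟩
    · exact (Subgroup.map_eq_bot_iff_of_injective n φ.injective).1 e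
    · rcases h3 (W.comap φ.toMonoidHom) (hW.comap _) (by
        rw [← Subgroup.comap_map_eq_self_of_injective (f := φ.toMonoidHom) φ.injective n]
        exact Subgroup.comap_mono hWn) with h | h
      · refine Or.inl ?_
        rw [← Subgroup.map_comap_eq_self_of_surjective (f := φ.toMonoidHom) φ.surjective W, h, Subgroup.map_bot]
      · refine Or.inr ?_
        rw [← Subgroup.map_comap_eq_self_of_surjective (f := φ.toMonoidHom) φ.surjective W, h]
  have hdisj : ∀ n ∈ S, ∀ W : Subgroup V, W.Normal → n ≤ W ∨ n ≤ centralizer (W : Set V) := by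
    intro n hn W hW
    have := hn.1
    rcases hn.2.2 (n ⊓ W) inferInstance inf_le_left with h | h
    · refine Or.inr fun a ha => mem_centralizer_iff.2 fun b hb => ?_
      exact (Subgroup.commute_of_normal_of_disjoint n W hn.1 hW (disjoint_iff.2 h) a b ha hb).symm.eq
    · exact Or.inl (h ▸ inf_le_right)
  have hnoab : ∀ n ∈ S, ¬ ∀ a ∈ n, ∀ b ∈ n, Commute a b := by
    intro n hn hab
    set A : Set (Subgroup V) := {k | k ∈ S ∧ ∀ a ∈ k, ∀ b ∈ k, Commute a b} with hA
    have : (sSup A).Characteristic := characteristic_sSup_of_invariant fun φ k hk => ⟨hmap φ k hk.1, by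
      rintro _ ⟨a, ha, rfl⟩ _ ⟨b, hb, rfl⟩
      exact (hk.2 a ha b hb).map φ.toMonoidHom⟩
    rcases hV.char_eq hα hVi (sSup A) with h | h
    · exact hn.2.1 (le_bot_iff.1 (h ▸ le_sSup (show n ∈ A from ⟨hn, hab⟩)))
    · refine hnab fun a b => ?_
      have hc : sSup A ≤ center V := by
        refine sSup_le fun k hk => ?_
        have hle : sSup A ≤ centralizer (k : Set V) := sSup_le fun k' hk' => by
          rcases hdisj k' hk'.1 k hk.1.1 with h' | h'
          · exact fun x hx => mem_centralizer_iff.2 fun y hy => (hk.2 y hy x (h' hx)).eq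
          · exact h'
        rw [h, top_le_iff] at hle
        intro x hx
        exact mem_center_iff.2 fun g => (mem_centralizer_iff.1 (hle ▸ mem_top g) x hx).symm
      rw [h] at hc
      exact mem_center_iff.1 (hc (mem_top b)) a
  have : (sSup S).Characteristic := characteristic_sSup_of_invariant hmap
  have hgen : sSup S = ⊤ := by
    rcases hV.char_eq hα hVi (sSup S) with h | h
    · obtain ⟨n, -, h1, h2, h3⟩ := exists_minNormal_le (N := (⊤ : Subgroup V)) top_ne_bot
      exact absurd (le_bot_iff.1 (h ▸ le_sSup (show n ∈ S from ⟨h1, h2, h3⟩))) h2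
    · exact h
  intro N hN
  refine ⟨top_le_iff.1 (hgen.ge.trans (sSup_le fun n hn => ?_)), ?_⟩
  · rcases hdisj n hn N hN with h | h
    · exact h.trans le_sup_left
    · exact h.trans le_sup_right
  · by_contra hne
    obtain ⟨n, hle, h1, h2, h3⟩ := exists_minNormal_le (N := N ⊓ centralizer (N : Set V)) hne
    exact hnoab n ⟨h1, h2, h3⟩ fun a ha b hb => (mem_centralizer_iff.1 (hle hb).2 a (hle ha).1)

/-- The fixed points in a subgroup meeting the centre trivially. -/
theorem card_fixedPts_rAut (h : Good α) {m : ℕ} (hm : Nat.card (invSet α) ≤ m)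
    (V : Subgroup G) (hVi : Invar α V) (hVZ : V ⊓ center G = ⊥) :
    Nat.card (fixedPts (rAut α h.invol V hVi)) ≤ m.factorial := by
  refine le_of_eq_of_le (Subgroup.card_map_of_injective
    (K := fixedPts (rAut α h.invol V hVi)) (f := V.subtype) V.subtype_injective).symm ?_
  refine card_fixed_le h hm _ ?_ fun a ha hz => mem_bot.1 (hVZ ▸ ⟨Subgroup.map_subtype_le _ ha, hz⟩)
  rintro _ ⟨x, hx, rfl⟩
  exact congrArg Subtype.val (mem_fixedPts.1 hx)

/-- An abelian subgroup of odd order meeting the centre trivially is bounded. -/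
theorem card_abelian_odd_le (h : Good α) {m : ℕ} (hm : Nat.card (invSet α) ≤ m)
    (V : Subgroup G) (hVi : Invar α V) (hVZ : V ⊓ center G = ⊥)
    (hab : ∀ a b : V, Commute a b) (hodd : ∀ v ∈ V, Odd (orderOf v)) :
    Nat.card V ≤ m.factorial * m := by
  set β := rAut α h.invol V hVi with hβ
  let φ : V →* V :=
    { toFun := fun v => v * (β v)⁻¹
      map_one' := by simp
      map_mul' := fun a b => by
        rw [map_mul, mul_inv_rev, (hab (β b)⁻¹ (β a)⁻¹).eq]
        exact (hab b (β a)⁻¹).mul_mul_mul_comm _ _ }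
  have h1 : Nat.card φ.ker ≤ m.factorial := by
    refine (Subgroup.card_le_of_le ?_).trans (card_fixedPts_rAut h hm V hVi hVZ)
    intro v hv
    exact (mul_inv_eq_one.1 (hv : v * (β v)⁻¹ = 1)).symm
  have h2 : Nat.card φ.range ≤ m := by
    refine le_trans (Nat.card_le_card_of_injective
      (fun v => (⟨((v : V) : G), hodd _ (v : V).2, ?_⟩ : invSet α)) ?_) hm
    · obtain ⟨w, hw⟩ := v.2
      rw [← hw]
      exact map_inv_comm h.invol (w : G)
    · exact fun a b e => Subtype.ext (Subtype.ext (congrArg Subtype.val e :))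
  rw [φ.ker.card_eq_card_quotient_mul_card_subgroup,
    Nat.card_congr (QuotientGroup.quotientKerEquivRange φ).toEquiv, mul_comm m.factorial]
  exact Nat.mul_le_mul h2 h1

end CfsgLib.InvertedBound
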