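import Cfsg.Agent.InvertedBound.Basic

/-!
Bounds on `⁅P, G⁆` for `P` of bounded index over the centre, `G` boundedly generated.
-/

set_option autoImplicit false

namespace CfsgLib.InvertedBound

open Subgroup
open scoped commutatorElement

universe u

variable {G : Type u} [Group G]

theorem comm_mul_right' (p g h : G) : ⁅p, g * h⁆ = ⁅p, g⁆ * (g * ⁅p, h⁆ * g⁻¹) := by
  simp only [commutatorElement_def]; group

theorem comm_mul_left' (p q g : G) : ⁅p * q, g⁆ = p * ⁅q, g⁆ * p⁻¹ * ⁅p, g⁆ := by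
  simp only [commutatorElement_def]; group

/-- Commutators with generators control `⁅P, G⁆`. -/
theorem commutator_le_of_gens [Finite G] (P S : Subgroup G) [P.Normal] (hSP : S ≤ P) {s : Set G}
    (hs : closure s = ⊤) (h : ∀ p ∈ P, ∀ x ∈ s, ⁅p, x⁆ ∈ S) : ⁅P, (⊤ : Subgroup G)⁆ ≤ S := by
  let M : Submonoid G :=
    { carrier := {g | ∀ p ∈ P, ⁅p, g⁆ ∈ S}
      one_mem' := fun p _ => by simp
      mul_mem' := fun {g k} hg hk p hp => by
        rw [comm_mul_right']
        refine S.mul_mem (hg p hp) ?_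
        have e : g * ⁅p, k⁆ * g⁻¹ = ⁅⁅p, k⁆, g⁆⁻¹ * ⁅p, k⁆ := by
          simp only [commutatorElement_def]; group
        rw [e]
        exact S.mul_mem (S.inv_mem (hg _ (hSP (hk p hp)))) (hk p hp) }
  refine Subgroup.commutator_le.2 fun p hp g _ => ?_
  have hg : g ∈ M := by
    refine Subgroup.closure_induction (p := fun g _ => g ∈ M) (fun x hx p hp => h p hp x hx)
      M.one_mem (fun _ _ _ _ ha hb => M.mul_mem ha hb) (fun a _ ha => ?_) (hs.ge (mem_top g))
    rw [inv_eq_of_mul_eq_one_right (show a * a ^ (orderOf a - 1) = 1 by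
      rw [← pow_succ', Nat.sub_add_cancel (orderOf_pos a), pow_orderOf_eq_one])]
    exact M.pow_mem ha _
  exact hg p hp

theorem card_sup_le_of_commute [Finite G] {H K : Subgroup G}
    (h : ∀ a ∈ H, ∀ b ∈ K, Commute a b) : Nat.card (H ⊔ K : Subgroup G) ≤ Nat.card H * Nat.card K := by
  set φ : H × K →* G := H.subtype.noncommCoprod K.subtype (fun a b => h a a.2 b b.2)
  have hr : H ⊔ K ≤ φ.range := sup_le (fun a ha => ⟨(⟨a, ha⟩, 1),
      show (a : G) * ((1 : K) : G) = a by simp⟩)
    (fun c hc => ⟨(1, ⟨c, hc⟩), show ((1 : H) : G) * c = c by simp⟩)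
  rw [← Nat.card_prod]
  exact (Subgroup.card_le_of_le hr).trans
    (Nat.card_le_card_of_surjective _ φ.rangeRestrict_surjective)

theorem card_finset_sup_le [Finite G] {ι : Type*} (s : Finset ι) (T : ι → Subgroup G)
    (A : Subgroup G) (hT : ∀ i ∈ s, T i ≤ A) (hA : ∀ a ∈ A, ∀ b ∈ A, Commute a b) {b : ℕ}
    (hb : ∀ i ∈ s, Nat.card (T i) ≤ b) :
    Nat.card (s.sup T : Subgroup G) ≤ b ^ s.card := by
  classical
  induction s using Finset.induction_on with
  | empty => rw [Finset.sup_empty, Finset.card_empty, pow_zero, Subgroup.card_bot]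
  | insert i s his ih =>
    rw [Finset.sup_insert, Finset.card_insert_of_notMem his, pow_succ']
    have hsA : s.sup T ≤ A := Finset.sup_le fun j hj => hT j (Finset.mem_insert_of_mem hj)
    refine (card_sup_le_of_commute fun a ha c hc =>
      hA a (hT i (Finset.mem_insert_self i s) ha) c (hsA hc)).trans ?_
    exact Nat.mul_le_mul (hb i (Finset.mem_insert_self i s))
      (ih (fun j hj => hT j (Finset.mem_insert_of_mem hj))
        (fun j hj => hb j (Finset.mem_insert_of_mem hj)))

/-- The homomorphism `a ↦ ⁅a, x⁆` on an abelian normal subgroup. -/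
def commHom (A : Subgroup G) [A.Normal] (hA : ∀ a ∈ A, ∀ b ∈ A, Commute a b) (x : G) : A →* G where
  toFun a := ⁅(a : G), x⁆
  map_one' := by simp
  map_mul' a b := by
    have hmem : ∀ c : A, ⁅(c : G), x⁆ ∈ A := fun c => by
      rw [show ⁅(c : G), x⁆ = c * (x * (c : G)⁻¹ * x⁻¹) by simp only [commutatorElement_def]; group]
      exact A.mul_mem c.2 (Normal.conj_mem inferInstance _ (A.inv_mem c.2) x)
    show ⁅(a : G) * b, x⁆ = ⁅(a : G), x⁆ * ⁅(b : G), x⁆
    rw [comm_mul_left', (hA a a.2 _ (hmem b)).eq, mul_inv_cancel_right, (hA _ (hmem b) _ (hmem a)).eq]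

theorem commHom_range_le (A : Subgroup G) [A.Normal] (hA : ∀ a ∈ A, ∀ b ∈ A, Commute a b) (x : G) :
    (commHom A hA x).range ≤ A := by
  rintro _ ⟨c, rfl⟩
  show ⁅(c : G), x⁆ ∈ A
  rw [show ⁅(c : G), x⁆ = c * (x * (c : G)⁻¹ * x⁻¹) by simp only [commutatorElement_def]; group]
  exact A.mul_mem c.2 (Normal.conj_mem inferInstance _ (A.inv_mem c.2) x)

theorem card_commutator_le_pow_of_abelian [Finite G] (A : Subgroup G) [A.Normal]
    (hA : ∀ a ∈ A, ∀ b ∈ A, Commute a b) {s : Set G} (hs : closure s = ⊤) {b m : ℕ}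
    (hb : ∀ x ∈ s, Nat.card (commHom A hA x).range ≤ b) (hm : Nat.card s ≤ m) (hb1 : 1 ≤ b) :
    Nat.card (⁅A, (⊤ : Subgroup G)⁆ : Subgroup G) ≤ b ^ m := by
  classical
  have hfin : s.Finite := Set.toFinite s
  set S := hfin.toFinset.sup (fun x => (commHom A hA x).range) with hS
  have hSA : S ≤ A := Finset.sup_le fun x _ => commHom_range_le A hA x
  have h1 : ⁅A, (⊤ : Subgroup G)⁆ ≤ S := commutator_le_of_gens A S hSA hs fun p hp x hx =>
    Finset.le_sup (f := fun x => (commHom A hA x).range) (hfin.mem_toFinset.2 hx) ⟨⟨p, hp⟩, rfl⟩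
  refine (Subgroup.card_le_of_le h1).trans ((card_finset_sup_le _ _ A
    (fun x _ => commHom_range_le A hA x) hA fun x hx => hb x (hfin.mem_toFinset.1 hx)).trans ?_)
  refine Nat.pow_le_pow_right hb1 ?_
  rwa [← Set.ncard_eq_toFinset_card s hfin, ← Nat.card_coe_set_eq]

theorem cardCommutatorBound_mono {a b : ℕ} (h : a ≤ b) :
    cardCommutatorBound a ≤ cardCommutatorBound b := by
  rcases Nat.eq_zero_or_pos a with rfl | ha
  · rcases Nat.eq_zero_or_pos b with rfl | hb
    · exact le_rfl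
    · simp only [cardCommutatorBound]
      refine le_trans ?_ (Nat.one_le_pow _ _ (Nat.one_le_pow _ _ hb))
      simp
  · simp only [cardCommutatorBound]
    have h1 : a ^ (2 * a) ≤ b ^ (2 * b) :=
      (Nat.pow_le_pow_left h _).trans (Nat.pow_le_pow_right (by omega) (by omega))
    have h2 : a ^ (2 * a + 1) ≤ b ^ (2 * b + 1) :=
      (Nat.pow_le_pow_left h _).trans (Nat.pow_le_pow_right (by omega) (by omega))
    exact (Nat.pow_le_pow_left h1 _).trans
      (Nat.pow_le_pow_right (Nat.one_le_pow _ _ (by omega)) (by omega))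

/-- The bound for `⁅P, G⁆`. -/
def commBound (b m : ℕ) : ℕ := cardCommutatorBound (b * b) * b ^ m

/-- `⁅P, G⁆` is bounded by the index of `P` over the centre and the number of generators. -/
theorem card_commutator_le [Finite G] (P : Subgroup G) [P.Normal] {s : Set G} (hs : closure s = ⊤)
    (K : Subgroup G) [K.Normal] (hK : K ≤ center G) {b m : ℕ}
    (hP : Nat.card (P.map (QuotientGroup.mk' K)) ≤ b) (hm : Nat.card s ≤ m) :
    Nat.card (⁅P, (⊤ : Subgroup G)⁆ : Subgroup G) ≤ commBound b m := by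
  classical
  set f := QuotientGroup.mk' K with hf
  have hb1 : 1 ≤ b := Nat.card_pos.trans_le hP
  -- representatives of `P` modulo `K`
  have hsec : ∀ q : P.map f, ∃ p : G, p ∈ P ∧ f p = q := fun q => q.2
  choose r hrP hr using hsec
  have hrep : ∀ p ∈ P, ∃ q : P.map f, ∃ z ∈ center G, p = r q * z := by
    intro p hp
    set q : P.map f := ⟨f p, p, hp, rfl⟩ with hq
    refine ⟨q, (r q)⁻¹ * p, hK ((QuotientGroup.eq_one_iff _).1 ?_), (mul_inv_cancel_left _ _).symm⟩
    show f ((r q)⁻¹ * p) = 1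
    rw [map_mul, map_inv, hr, hq, inv_mul_cancel]
  have hz1 : ∀ (p g z : G), z ∈ center G → ⁅p * z, g⁆ = ⁅p, g⁆ := by
    intro p g z hz
    have hzc : ∀ y, y * z = z * y := fun y => mem_center_iff.1 hz y
    simp only [commutatorElement_def, mul_inv_rev]
    calc p * z * g * (z⁻¹ * p⁻¹) * g⁻¹ = p * (z * g) * (z⁻¹ * p⁻¹) * g⁻¹ := by group
      _ = p * g * p⁻¹ * g⁻¹ := by rw [← hzc g]; group
  -- the derived subgroup of `P`
  have hCsub : commutatorSet ↥P ⊆
      Set.range (fun q : P.map f × P.map f => ⁅(⟨r q.1, hrP q.1⟩ : ↥P), ⟨r q.2, hrP q.2⟩⁆) := by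
    rintro _ ⟨p, p', rfl⟩
    obtain ⟨q, z, hz, hpq⟩ := hrep p p.2
    obtain ⟨q', z', hz', hpq'⟩ := hrep p' p'.2
    refine ⟨(q, q'), Subtype.ext ?_⟩
    show ⁅r q, r q'⁆ = ⁅(p : G), (p' : G)⁆
    rw [hpq, hpq', hz1 _ _ _ hz, ← commutatorElement_inv (r q' * z') (r q), hz1 _ _ _ hz',
      commutatorElement_inv]
  have hC : Nat.card (commutatorSet ↥P) ≤ b * b := by
    rw [Nat.card_coe_set_eq]
    refine (Set.ncard_le_ncard hCsub (Set.toFinite _)).trans ?_
    rw [← Nat.card_coe_set_eq]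
    exact (Finite.card_range_le _).trans (by rw [Nat.card_prod]; exact Nat.mul_le_mul hP hP)
  set D := ⁅P, P⁆ with hD
  have hDcard : Nat.card D ≤ cardCommutatorBound (b * b) := by
    rw [hD, ← map_subtype_commutator, Subgroup.card_map_of_injective P.subtype_injective]
    exact (card_commutator_le_of_finite_commutatorSet ↥P).trans (cardCommutatorBound_mono hC)
  -- modulo the derived subgroup
  have : D.Normal := Subgroup.commutator_normal P P
  set π := QuotientGroup.mk' D with hπ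
  have : (P.map π).Normal := Subgroup.Normal.map inferInstance π (QuotientGroup.mk'_surjective D)
  have hab : ∀ a ∈ P.map π, ∀ c ∈ P.map π, Commute a c := by
    rintro _ ⟨a, ha, rfl⟩ _ ⟨c, hc, rfl⟩
    rw [← commutatorElement_eq_one_iff_commute, ← map_commutatorElement]
    exact (QuotientGroup.eq_one_iff _).2 (Subgroup.commutator_mem_commutator ha hc)
  have hgen : closure (π '' s) = ⊤ := by
    rw [← MonoidHom.map_closure, hs, Subgroup.map_top_of_surjective _ (QuotientGroup.mk'_surjective D)]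
  have h2 : Nat.card (⁅P.map π, (⊤ : Subgroup (G ⧸ D))⁆ : Subgroup (G ⧸ D)) ≤ b ^ m := by
    refine card_commutator_le_pow_of_abelian _ hab hgen ?_ ?_ hb1
    · rintro _ ⟨x, -, rfl⟩
      refine le_trans ?_ hP
      rw [← SetLike.coe_sort_coe, MonoidHom.coe_range, Nat.card_coe_set_eq]
      refine (Set.ncard_le_ncard (t := Set.range fun q : P.map f => π ⁅r q, x⁆) ?_
        (Set.toFinite _)).trans ?_
      · rintro _ ⟨⟨_, p, hp, rfl⟩, rfl⟩
        obtain ⟨q, z, hz, hpq⟩ := hrep p hp
        refine ⟨q, ?_⟩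
        show π ⁅r q, x⁆ = ⁅π p, π x⁆
        rw [← map_commutatorElement, hpq, hz1 _ _ _ hz]
      · rw [← Nat.card_coe_set_eq]
        exact Finite.card_range_le _
    · rw [Nat.card_coe_set_eq]
      exact (Set.ncard_image_le (Set.toFinite _)).trans (by rwa [← Nat.card_coe_set_eq])
  refine (card_le_of_map D _).trans ?_
  rw [Subgroup.map_commutator, Subgroup.map_top_of_surjective _ (QuotientGroup.mk'_surjective D),
    commBound, mul_comm (cardCommutatorBound _)]
  exact Nat.mul_le_mul h2 hDcard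

theorem commBound_mono {b b' : ℕ} (m : ℕ) (h : b ≤ b') : commBound b m ≤ commBound b' m :=
  Nat.mul_le_mul (cardCommutatorBound_mono (Nat.mul_le_mul h h)) (Nat.pow_le_pow_left h m)

end CfsgLib.InvertedBound
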