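import Cfsg.Agent.InvertedBound.TwoGroup

/-!
Semisimple groups with an involutory automorphism with few fixed points are bounded (Brauer–Fowler).
-/

set_option autoImplicit false

namespace CfsgLib.InvertedBound

open Subgroup
open scoped commutatorElement

universe u

variable {X : Type u} [Group X]

/-- Every normal subgroup is complemented by its centralizer. -/
def Split (X : Type u) [Group X] : Prop :=
  ∀ N : Subgroup X, N.Normal → N ⊔ centralizer (N : Set X) = ⊤ ∧ N ⊓ centralizer (N : Set X) = ⊥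

theorem Split.center_eq_bot (h : Split X) : center X = ⊥ := by
  have h1 := (h ⊤ inferInstance).2
  rwa [top_inf_eq, Subgroup.coe_top, Subgroup.centralizer_univ] at h1

/-- The fixed points of an automorphism. -/
def fixedPts (α : MulAut X) : Subgroup X where
  carrier := {x | α x = x}
  one_mem' := map_one α
  mul_mem' := fun {a b} (ha : α a = a) (hb : α b = b) => show α (a * b) = a * b by rw [map_mul, ha, hb]
  inv_mem' := fun {a} (ha : α a = a) => show α a⁻¹ = a⁻¹ by rw [map_inv, ha]

theorem mem_fixedPts {α : MulAut X} {x : X} : x ∈ fixedPts α ↔ α x = x := Iff.rfl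

variable [Finite X] {α : MulAut X}

/-- A fixed-point-free involutory automorphism inverts an abelian group. -/
theorem commute_of_fixedPts_eq_bot (hα : ∀ x, α (α x) = x) (h : ∀ x, α x = x → x = 1) (a b : X) :
    Commute a b := by
  have hinj : Function.Injective (fun x : X => x * (α x)⁻¹) := by
    intro x y e
    refine (inv_mul_eq_one.1 (h (y⁻¹ * x) ?_)).symm
    have e' : x * (α x)⁻¹ = y * (α y)⁻¹ := e
    calc α (y⁻¹ * x) = (α y)⁻¹ * α x := by rw [map_mul, map_inv]
      _ = y⁻¹ * (y * (α y)⁻¹) * α x := by group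
      _ = y⁻¹ * (x * (α x)⁻¹) * α x := by rw [e']
      _ = y⁻¹ * x := by group
  have hinv : ∀ x, α x = x⁻¹ := fun x => by
    obtain ⟨z, rfl⟩ := Finite.surjective_of_injective hinj x
    exact map_inv_comm hα z
  show a * b = b * a
  have := hinv (a * b)
  rw [map_mul, hinv, hinv, mul_inv_rev] at this
  have e := congrArg Inv.inv this
  simpa using e.symm

/-- Brauer–Fowler: some nontrivial element has a centralizer of bounded index. -/
theorem exists_large_centralizer (hα : ∀ x, α (α x) = x) {c : ℕ}
    (hc : Nat.card (fixedPts α) ≤ c) (hn : 2 * c ≤ Nat.card X) :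
    ∃ y : X, y ≠ 1 ∧ Nat.card X ≤ 2 * (c * c) * Nat.card (centralizer ({y} : Set X)) := by
  classical
  have := Fintype.ofFinite X
  by_contra hcon
  push Not at hcon
  set n := Nat.card X with hn'
  have hc1 : 1 ≤ c := Nat.card_pos.trans_le hc
  let R : Finset X := Finset.univ.image (fun x : X => x * (α x)⁻¹)
  have hR : ∀ r ∈ R, α r = r⁻¹ := by
    intro r hr
    obtain ⟨x, -, rfl⟩ := Finset.mem_image.1 hr
    exact map_inv_comm hα x
  have hfib : ∀ r ∈ R,
      (Finset.univ.filter fun x : X => x * (α x)⁻¹ = r).card ≤ c := by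
    intro r hr
    obtain ⟨x0, -, hx0⟩ := Finset.mem_image.1 hr
    refine le_trans ?_ hc
    rw [Nat.card_eq_fintype_card, ← Fintype.card_coe]
    have hmem : ∀ x : (Finset.univ.filter fun x : X => x * (α x)⁻¹ = r), x0⁻¹ * (x : X) ∈ fixedPts α := by
      intro x
      have hx : (x : X) * (α x)⁻¹ = x0 * (α x0)⁻¹ := (Finset.mem_filter.1 x.2).2.trans hx0.symm
      rw [mem_fixedPts, map_mul, map_inv]
      calc (α x0)⁻¹ * α (x : X) = x0⁻¹ * (x0 * (α x0)⁻¹) * α (x : X) := by group
        _ = x0⁻¹ * ((x : X) * (α x)⁻¹) * α (x : X) := by rw [hx]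
        _ = x0⁻¹ * x := by group
    exact Fintype.card_le_of_injective (fun x => ⟨x0⁻¹ * (x : X), hmem x⟩)
      (fun a b e => Subtype.ext (mul_left_cancel (congrArg Subtype.val e)))
  have hRn : n ≤ c * R.card := by
    rw [hn', Nat.card_eq_fintype_card]
    exact Finset.card_le_mul_card_image (f := fun x : X => x * (α x)⁻¹) Finset.univ c hfib
  let F : X → Finset X := fun y => R.filter fun r => r * y ∈ R
  have hF : ∀ y, (F y).card ≤ Nat.card (centralizer ({y} : Set X)) := by
    intro y
    rcases (F y).eq_empty_or_nonempty with he | ⟨r0, hr0⟩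
    · rw [he, Finset.card_empty]; exact Nat.zero_le _
    rw [Nat.card_eq_fintype_card, ← Fintype.card_coe]
    have hy : ∀ r ∈ F y, α y = r * y⁻¹ * r⁻¹ := by
      intro r hr
      obtain ⟨h1, h2⟩ := Finset.mem_filter.1 hr
      have e := hR _ h2
      rw [map_mul, hR r h1, mul_inv_rev] at e
      rw [mul_assoc r, ← e, mul_inv_cancel_left]
    have hmem : ∀ r : F y, r0⁻¹ * (r : X) ∈ centralizer ({y} : Set X) := by
      intro r
      have e : r0 * y * r0⁻¹ = (r : X) * y * (r : X)⁻¹ := by
        have e := congrArg Inv.inv ((hy r0 hr0).symm.trans (hy r r.2))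
        simpa [mul_inv_rev, mul_assoc] using e
      rw [mem_centralizer_singleton_iff]
      calc r0⁻¹ * (r : X) * y = r0⁻¹ * ((r : X) * y * (r : X)⁻¹) * r := by group
        _ = r0⁻¹ * (r0 * y * r0⁻¹) * r := by rw [e]
        _ = y * (r0⁻¹ * r) := by group
    exact Fintype.card_le_of_injective (fun r => ⟨r0⁻¹ * (r : X), hmem r⟩)
      (fun a b e => Subtype.ext (mul_left_cancel (congrArg Subtype.val e)))
  have hsum : R.card * R.card = ∑ y : X, (F y).card := by
    rw [← Finset.card_sigma, ← Finset.card_product]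
    refine Finset.card_bij' (fun p _ => (⟨p.1⁻¹ * p.2, p.1⟩ : (_ : X) × X))
      (fun q _ => (q.2, q.2 * q.1)) ?_ ?_ ?_ ?_
    · rintro ⟨r, s⟩ hp
      obtain ⟨h1, h2⟩ := Finset.mem_product.1 hp
      exact Finset.mem_sigma.2 ⟨Finset.mem_univ _, Finset.mem_filter.2
        ⟨h1, by simpa using h2⟩⟩
    · rintro ⟨y, r⟩ hq
      obtain ⟨h1, h2⟩ := Finset.mem_filter.1 (Finset.mem_sigma.1 hq).2
      exact Finset.mem_product.2 ⟨h1, h2⟩
    · rintro ⟨r, s⟩ _
      simp
    · rintro ⟨y, r⟩ _
      simp
  rw [← Finset.add_sum_erase _ _ (Finset.mem_univ (1 : X))] at hsum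
  set T := ∑ y ∈ Finset.univ.erase (1 : X), (F y).card with hT
  have hF1 : (F 1).card ≤ R.card := Finset.card_filter_le _ _
  have hTb : 2 * (c * c) * T ≤ (n - 1) * (n - 1) := by
    rw [hT, Finset.mul_sum]
    refine (Finset.sum_le_card_nsmul _ _ (n - 1) fun y hy => ?_).trans ?_
    · exact Nat.le_sub_one_of_lt
        ((Nat.mul_le_mul_left _ (hF y)).trans_lt (hcon y (Finset.ne_of_mem_erase hy)))
    · rw [smul_eq_mul, Finset.card_erase_of_mem (Finset.mem_univ _), Finset.card_univ,
        ← Nat.card_eq_fintype_card]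
  have hn2 : 2 ≤ n := le_trans (by omega) hn
  have hR2 : 2 ≤ R.card := Nat.le_of_mul_le_mul_left (by rw [mul_comm]; exact hn.trans hRn) hc1
  obtain ⟨k, hk⟩ : ∃ k, n = k + 1 := ⟨n - 1, by omega⟩
  rw [hk, Nat.add_sub_cancel] at hTb
  have h1 : R.card * R.card ≤ R.card + T := hsum ▸ Nat.add_le_add_right hF1 T
  have h2 : 2 * R.card ≤ R.card * R.card := Nat.mul_le_mul_right _ hR2
  have h3 : R.card * R.card ≤ 2 * T := by omega
  have h4 : n * n ≤ c * c * (R.card * R.card) :=
    (Nat.mul_le_mul hRn hRn).trans_eq (by ring)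
  have h5 : n * n ≤ k * k := h4.trans ((Nat.mul_le_mul_left _ h3).trans
    (le_of_eq_of_le (by ring) hTb))
  have h6 : k * k < n * n := Nat.mul_lt_mul_of_lt_of_lt (by omega) (by omega)
  exact absurd h6 (not_lt.2 h5)

theorem index_normalCore_le (H : Subgroup X) : H.normalCore.index ≤ H.index.factorial := by
  classical
  rw [normalCore_eq_ker, Subgroup.index_ker, Subgroup.index, ← Nat.card_perm]
  exact Nat.card_le_card_of_injective _ Subtype.val_injective

omit [Finite X] in
theorem Split.restrict (h : Split X) (N : Subgroup X) [N.Normal] :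
    Split N := by
  set M := centralizer (N : Set X) with hM
  obtain ⟨hsup, hinf⟩ := h N inferInstance
  intro L hL
  set L' := L.map N.subtype with hL'
  have hLN : L' ≤ N := Subgroup.map_subtype_le L
  have hLn : L'.Normal := by
    refine normalizer_eq_top_iff.1 (top_le_iff.1 (hsup.ge.trans (sup_le ?_ ?_)))
    · intro g hg
      refine mem_normalizer_iff.2 fun x => ⟨?_, ?_⟩
      · rintro ⟨l, hl, rfl⟩
        exact ⟨⟨g, hg⟩ * l * ⟨g, hg⟩⁻¹, hL.conj_mem l hl _, rfl⟩
      · rintro ⟨l, hl, e⟩
        refine ⟨⟨g, hg⟩⁻¹ * l * (⟨g, hg⟩⁻¹)⁻¹, hL.conj_mem l hl _, ?_⟩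
        simp only [coe_subtype, Subgroup.coe_mul, Subgroup.coe_inv, inv_inv] at e ⊢
        rw [e]; group
    · exact (centralizer_le (s := (L' : Set X)) hLN).trans (centralizer_le_normalizer _)
  obtain ⟨h1, h2⟩ := h L' hLn
  refine ⟨top_le_iff.1 fun x _ => ?_, le_bot_iff.1 fun x hx => ?_⟩
  · obtain ⟨a, ha, b, hb, hab⟩ := mem_sup_of_normal_left.1 (h1.ge (mem_top (x : X)))
    have hbN : b ∈ N := by
      rw [show b = a⁻¹ * x by rw [← hab, inv_mul_cancel_left]]
      exact N.mul_mem (N.inv_mem (hLN ha)) x.2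
    obtain ⟨l, hl, rfl⟩ := ha
    rw [show x = l * ⟨b, hbN⟩ from Subtype.ext hab.symm]
    refine Subgroup.mul_mem_sup hl (mem_centralizer_iff.2 fun l' hl' => Subtype.ext ?_)
    exact mem_centralizer_iff.1 hb l' ⟨l', hl', rfl⟩
  · have hx' : (x : X) ∈ L' ⊓ centralizer (L' : Set X) := ⟨⟨x, hx.1, rfl⟩, by
      refine mem_centralizer_iff.2 ?_
      rintro _ ⟨l, hl, rfl⟩
      exact congrArg Subtype.val (mem_centralizer_iff.1 hx.2 l hl)⟩
    rw [h2, mem_bot] at hx'
    exact mem_bot.2 (Subtype.ext hx')

/-- Semisimple groups with at most `c` fixed points of an involutory automorphism are bounded. -/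
theorem exists_bound_split : ∀ c : ℕ, ∃ B : ℕ, ∀ (X : Type u) [Group X] [Finite X] (α : MulAut X),
    (∀ x, α (α x) = x) → Split X → Nat.card (fixedPts α) ≤ c → Nat.card X ≤ B := by
  intro c
  induction c with
  | zero => exact ⟨0, fun X _ _ α _ _ h => absurd h (by simp [Nat.card_pos.ne'])⟩
  | succ c ih =>
    obtain ⟨B, hB⟩ := ih
    set b := 2 * ((c + 1) * (c + 1)) with hb
    set d := b.factorial * b.factorial with hd
    refine ⟨max (2 * (c + 1)) (max d (B * d)), fun X _ _ α hα hS hc => ?_⟩
    by_cases hn : 2 * (c + 1) ≤ Nat.card X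
    swap
    · exact (le_of_not_ge hn).trans (le_max_left _ _)
    obtain ⟨y, hy1, hy⟩ := exists_large_centralizer hα hc hn
    set H := centralizer ({y} : Set X) with hH
    have hHt : H ≠ ⊤ := fun e => hy1 (mem_bot.1 (hS.center_eq_bot ▸ mem_center_iff.2 fun g =>
      mem_centralizer_singleton_iff.1 (e ▸ mem_top g : g ∈ H)))
    have hidx : H.index ≤ b := by
      rw [← H.index_mul_card] at hy
      exact Nat.le_of_mul_le_mul_right hy Nat.card_pos
    set N := H.normalCore ⊓ H.normalCore.comap α.toMonoidHom with hN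
    have : N.Normal := by rw [hN]; infer_instance
    have hNi : Invar α N := fun x hx => ⟨hx.2, by
      show α (α x) ∈ H.normalCore
      rw [hα]; exact hx.1⟩
    have hNt : N ≠ ⊤ := fun e => hHt (top_le_iff.1
      (e.ge.trans (inf_le_left.trans (normalCore_le H))))
    have hNidx : N.index ≤ d := by
      refine index_inf_le.trans (Nat.mul_le_mul ?_ ?_)
      · exact (index_normalCore_le H).trans (Nat.factorial_le hidx)
      · rw [index_comap_of_surjective _ α.surjective]
        exact (index_normalCore_le H).trans (Nat.factorial_le hidx)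
    obtain ⟨hsup, hinf⟩ := hS N inferInstance
    set M := centralizer (N : Set X) with hM
    have hMi : Invar α M := invar_centralizer hα hNi
    have hMne : M ≠ ⊥ := fun e => hNt (by rwa [e, sup_bot_eq] at hsup)
    -- a fixed point outside `N`
    have hfix : ∃ z ∈ M, α z = z ∧ z ≠ 1 := by
      by_contra hno
      push Not at hno
      let β : MulAut M :=
        { toFun := fun x => ⟨α x, hMi x x.2⟩
          invFun := fun x => ⟨α x, hMi x x.2⟩
          left_inv := fun x => Subtype.ext (hα x)
          right_inv := fun x => Subtype.ext (hα x)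
          map_mul' := fun a b => Subtype.ext (map_mul α _ _) }
      refine hMne (le_bot_iff.1 fun z hz => ?_)
      have hc' := commute_of_fixedPts_eq_bot (α := β) (fun x => Subtype.ext (hα x))
        (fun x hx => Subtype.ext (hno x x.2 (congrArg Subtype.val hx)))
      rw [← hS.center_eq_bot]
      refine mem_center_iff.2 fun g => ?_
      obtain ⟨n, hn, e, he, rfl⟩ := mem_sup_of_normal_left.1 (hsup.ge (mem_top g))
      exact (((show Commute n z from mem_centralizer_iff.1 hz n hn)).mul_left
        (congrArg Subtype.val (hc' ⟨e, he⟩ ⟨z, hz⟩).eq)).eq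
    obtain ⟨z, hzM, hzf, hz1⟩ := hfix
    let γ : MulAut N :=
      { toFun := fun x => ⟨α x, hNi x x.2⟩
        invFun := fun x => ⟨α x, hNi x x.2⟩
        left_inv := fun x => Subtype.ext (hα x)
        right_inv := fun x => Subtype.ext (hα x)
        map_mul' := fun a b => Subtype.ext (map_mul α _ _) }
    have hlt : Nat.card (fixedPts γ) < Nat.card (fixedPts α) := by
      let F := (fixedPts γ).map N.subtype
      have hF : Nat.card (fixedPts γ) = Nat.card F :=
        (Subgroup.card_map_of_injective N.subtype_injective).symm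
      rw [hF]
      have hle : F ≤ fixedPts α := by
        rintro _ ⟨x, hx, rfl⟩
        exact congrArg Subtype.val (hx : γ x = x)
      refine lt_of_le_of_ne (Subgroup.card_le_of_le hle) fun e => hz1 ?_
      have hzF : z ∈ F := (Subgroup.eq_of_le_of_card_ge hle e.ge).ge hzf
      rw [← mem_bot, ← hinf]
      exact ⟨Subgroup.map_subtype_le _ hzF, hzM⟩
    have hNc : Nat.card N ≤ B :=
      hB N γ (fun x => Subtype.ext (hα x)) (hS.restrict N) (by omega)
    rw [← N.card_mul_index]
    exact (Nat.mul_le_mul hNc hNidx).trans ((le_max_right _ _).trans (le_max_right _ _))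

end CfsgLib.InvertedBound
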