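import Cfsg.Agent.InvertedBound.Schur
import Cfsg.Agent.PGroup.Critical
import Cfsg.Agent.SectionFunctors.KInfNormal
import Cfsg.Agent.LocalP.Basic

/-!
The bound for `⁅O₂(G), G⁆`.
-/

set_option autoImplicit false

namespace CfsgLib.InvertedBound

open Subgroup
open scoped commutatorElement

universe u

variable {G : Type u} [Group G] [Finite G] {α : MulAut G}

omit [Finite G] in
theorem Invar.inf {H K : Subgroup G} (hH : Invar α H) (hK : Invar α K) : Invar α (H ⊓ K) :=
  fun k hk => ⟨hH k hk.1, hK k hk.2⟩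

omit [Finite G] in
theorem invar_iff_map {H : Subgroup G} : Invar α H ↔ H.map α.toMonoidHom ≤ H := by
  constructor
  · rintro h _ ⟨k, hk, rfl⟩
    exact h k hk
  · exact fun h k hk => h ⟨k, hk, rfl⟩

omit [Finite G] in
theorem invar_top : Invar α (⊤ : Subgroup G) := fun _ _ => mem_top _

theorem Invar.commutator {H K : Subgroup G} (hH : Invar α H) (hK : Invar α K) :
    Invar α ⁅H, K⁆ := by
  rw [invar_iff_map] at hH hK ⊢
  rw [map_commutator]
  exact Subgroup.commutator_mono hH hK

omit [Finite G] in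
theorem Invar.map_quot (h : ∀ g, α (α g) = g) {H K : Subgroup G} [K.Normal] (hH : Invar α H)
    (hK : Invar α K) : Invar (qAut α h K hK) (H.map (QuotientGroup.mk' K)) := by
  rintro _ ⟨g, hg, rfl⟩
  exact ⟨α g, hH g hg, rfl⟩

omit [Finite G] in
theorem Invar.comap_quot (h : ∀ g, α (α g) = g) {K : Subgroup G} [K.Normal] (hK : Invar α K)
    {H : Subgroup (G ⧸ K)} (hH : Invar (qAut α h K hK) H) : Invar α (H.comap (QuotientGroup.mk' K)) :=
  fun g hg => hH (QuotientGroup.mk' K g) hg

omit [Finite G] in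
theorem invar_char {H : Subgroup G} [H.Characteristic] : Invar α H :=
  fun k hk => Subgroup.characteristic_iff_le_comap.1 inferInstance α hk

omit [Finite G] in
theorem invar_centralizer {H : Subgroup G} (h : ∀ g, α (α g) = g) (hH : Invar α H) :
    Invar α (centralizer (H : Set G)) := by
  intro k hk
  refine mem_centralizer_iff.2 fun x hx => ?_
  have := congrArg α (mem_centralizer_iff.1 hk (α x) (hH x hx))
  simpa [h] using this

/-- Fixed elements act faithfully on the inverted odd elements, modulo the centre. -/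
theorem card_fixed_le (h : Good α) {m : ℕ} (hm : Nat.card (invSet α) ≤ m) (A : Subgroup G)
    (hA : ∀ a ∈ A, α a = a) (hAZ : ∀ a ∈ A, a ∈ center G → a = 1) : Nat.card A ≤ m.factorial := by
  classical
  let act : A → Equiv.Perm (invSet α) := fun a =>
    (MulAut.conj (a : G)).toEquiv.subtypeEquiv fun g => by
      constructor
      · rintro ⟨h1, h2⟩
        refine ⟨by rwa [show orderOf ((MulAut.conj (a : G)).toEquiv g) = orderOf g from
          MulEquiv.orderOf_eq _ g], ?_⟩
        show α ((a : G) * g * (a : G)⁻¹) = ((a : G) * g * (a : G)⁻¹)⁻¹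
        rw [map_mul, map_mul, map_inv, hA a a.2, h2]
        group
      · rintro ⟨h1, h2⟩
        refine ⟨by rwa [show orderOf ((MulAut.conj (a : G)).toEquiv g) = orderOf g from
          MulEquiv.orderOf_eq _ g] at h1, ?_⟩
        change α ((a : G) * g * (a : G)⁻¹) = ((a : G) * g * (a : G)⁻¹)⁻¹ at h2
        rw [map_mul, map_mul, map_inv, hA a a.2, mul_inv_rev, mul_inv_rev, inv_inv, ← mul_assoc,
          mul_left_inj, mul_right_inj] at h2
        exact h2
  have hinj : Function.Injective act := by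
    intro a b e
    have hc : ∀ x ∈ invSet α, (a : G) * x * (a : G)⁻¹ = (b : G) * x * (b : G)⁻¹ := fun x hx =>
      congrArg (fun σ : Equiv.Perm (invSet α) => ((σ ⟨x, hx⟩ : invSet α) : G)) e
    have hz : (b : G)⁻¹ * a ∈ center G := by
      rw [← Subgroup.centralizer_univ, Subgroup.mem_centralizer_iff]
      intro g _
      have hle : closure (invSet α) ≤ centralizer ({(b : G)⁻¹ * a} : Set G) :=
        (closure_le _).2 fun x hx => mem_centralizer_singleton_iff.2 (by
          calc x * ((b : G)⁻¹ * a) = (b : G)⁻¹ * ((b : G) * x * (b : G)⁻¹) * a := by group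
            _ = (b : G)⁻¹ * ((a : G) * x * (a : G)⁻¹) * a := by rw [hc x hx]
            _ = (b : G)⁻¹ * a * x := by group)
      exact mem_centralizer_singleton_iff.1 (hle (h.gen.ge (mem_top g)))
    exact Subtype.ext (inv_mul_eq_one.1 (hAZ _ (A.mul_mem (A.inv_mem b.2) a.2) hz)).symm
  refine (Nat.card_le_card_of_injective act hinj).trans ?_
  rw [Nat.card_perm]
  exact Nat.factorial_le hm

omit [Finite G] in
/-- A two-element commuting with the commutator of `u` and an odd element lies in it trivially. -/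
theorem eq_one_of_comm_fixed {u x : G} (hx : Odd (orderOf x)) {w : G} (hw : w = ⁅u, x⁆)
    (hxw : Commute x w) {j : ℕ} (hj : w ^ 2 ^ j = 1) : w = 1 := by
  have h1 : ∀ n : ℕ, x ^ n * u * (x ^ n)⁻¹ = (w ^ n)⁻¹ * u := by
    intro n
    induction n with
    | zero => simp
    | succ n ih =>
      have hbase : x * u * x⁻¹ = w⁻¹ * u := by
        rw [hw, commutatorElement_def]; group
      calc x ^ (n + 1) * u * (x ^ (n + 1))⁻¹ = x * (x ^ n * u * (x ^ n)⁻¹) * x⁻¹ := by
            rw [pow_succ']; group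
        _ = (x * (w ^ n)⁻¹ * x⁻¹) * (x * u * x⁻¹) := by rw [ih]; group
        _ = (w ^ n)⁻¹ * (w⁻¹ * u) := by
            rw [hbase, ((hxw.pow_right n).inv_right).eq, mul_inv_cancel_right]
        _ = (w ^ (n + 1))⁻¹ * u := by rw [pow_succ', mul_inv_rev, mul_assoc]
  have h2 := h1 (orderOf x)
  rw [pow_orderOf_eq_one, inv_one, one_mul, mul_one, right_eq_mul, inv_eq_one] at h2
  exact orderOf_eq_one_iff.1 (Nat.eq_one_of_dvd_coprimes ((Nat.coprime_two_left.2 hx).pow_left j)
    (orderOf_dvd_of_pow_eq_one hj) (orderOf_dvd_of_pow_eq_one h2))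

theorem card_range_commHom_le (h : Good α) {m : ℕ} (hm : Nat.card (invSet α) ≤ m) (U : Subgroup G)
    [U.Normal] (hU : Invar α U) (hab : ∀ a ∈ U, ∀ b ∈ U, Commute a b) (h2 : IsPGroup 2 U) {x : G}
    (hx : x ∈ invSet α) : Nat.card (commHom U hab x).range ≤ m.factorial * m.factorial := by
  set W := (commHom U hab x).range with hWdef
  have hWU : W ≤ U := commHom_range_le U hab x
  have hWx : ∀ w ∈ W, x * w * x⁻¹ ∈ W ∧ x⁻¹ * w * x ∈ W := by
    rintro _ ⟨u, rfl⟩
    refine ⟨⟨⟨x * u * x⁻¹, Normal.conj_mem inferInstance _ u.2 x⟩, ?_⟩,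
      ⟨⟨x⁻¹ * u * x, Normal.conj_mem' inferInstance _ u.2 x⟩, ?_⟩⟩
    · show ⁅x * (u : G) * x⁻¹, x⁆ = x * ⁅(u : G), x⁆ * x⁻¹
      simp only [commutatorElement_def]; group
    · show ⁅x⁻¹ * (u : G) * x, x⁆ = x⁻¹ * ⁅(u : G), x⁆ * x
      simp only [commutatorElement_def]; group
  have hWα : Invar α W := by
    rintro _ ⟨u, rfl⟩
    have hv : x⁻¹ * α u * x ∈ U := Normal.conj_mem' inferInstance _ (hU u u.2) x
    refine ⟨⟨x⁻¹ * α u * x, hv⟩⁻¹, ?_⟩
    rw [map_inv]
    show ⁅x⁻¹ * α (u : G) * x, x⁆⁻¹ = α ⁅(u : G), x⁆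
    rw [map_commutatorElement, hx.2]
    have hc : Commute (α (u : G)) (x⁻¹ * α u * x) := hab _ (hU u u.2) _ hv
    have e1 : ⁅x⁻¹ * α (u : G) * x, x⁆⁻¹ = α u * (x⁻¹ * α u * x)⁻¹ := by
      simp only [commutatorElement_def]; group
    have e2 : ⁅α (u : G), x⁻¹⁆ = α u * (x⁻¹ * α u * x)⁻¹ := by
      simp only [commutatorElement_def]; group
    rw [e1, e2]
  have hfix : ∀ w ∈ W, Commute x w → w = 1 := by
    intro w hw hc
    obtain ⟨j, hj⟩ := h2 ⟨w, hWU hw⟩
    obtain ⟨u, hu⟩ := hw
    exact eq_one_of_comm_fixed hx.1 hu.symm hc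
      (congrArg Subtype.val hj)
  let A : Subgroup G :=
    { carrier := {w | w ∈ W ∧ α w = w}
      one_mem' := ⟨W.one_mem, map_one _⟩
      mul_mem' := fun ha hb => ⟨W.mul_mem ha.1 hb.1, by rw [map_mul, ha.2, hb.2]⟩
      inv_mem' := fun ha => ⟨W.inv_mem ha.1, by rw [map_inv, ha.2]⟩ }
  have hA : Nat.card A ≤ m.factorial := card_fixed_le h hm A (fun _ ha => ha.2)
    fun a ha hz => hfix a ha.1 (mem_center_iff.1 hz x)
  let ρ : W →* G :=
    { toFun := fun w => (w : G) * α w
      map_one' := by simp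
      map_mul' := fun a b => by
        show (a : G) * b * α ((a : G) * b) = (a : G) * α a * ((b : G) * α b)
        rw [map_mul]
        exact (hab _ (hWU b.2) _ (hU _ (hWU a.2))).mul_mul_mul_comm _ _ }
  have hρ : Nat.card ρ.range ≤ m.factorial := by
    refine le_trans (Subgroup.card_le_of_le ?_) hA
    rintro _ ⟨w, rfl⟩
    refine ⟨W.mul_mem w.2 (hWα _ w.2), ?_⟩
    show α ((w : G) * α w) = (w : G) * α w
    rw [map_mul, h.invol]
    exact (hab _ (hWU (hWα _ w.2)) _ (hWU w.2)).eq
  let ψ : ρ.ker → A := fun w => ⟨x * ((w : W) : G) * x⁻¹ * (x⁻¹ * ((w : W) : G) * x)⁻¹, by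
    refine ⟨W.mul_mem (hWx _ (w : W).2).1 (W.inv_mem (hWx _ (w : W).2).2), ?_⟩
    have hw : α ((w : W) : G) = ((w : W) : G)⁻¹ := eq_inv_of_mul_eq_one_right w.2
    simp only [map_mul, map_inv, hw, hx.2, inv_inv]
    rw [(hab _ (hWU (hWx _ (w : W).2).1) _ (U.inv_mem (hWU (hWx _ (w : W).2).2))).eq]
    group⟩
  have hψ : Function.Injective ψ := by
    intro a b e
    have e' : x * ((a : W) : G) * x⁻¹ * (x⁻¹ * ((a : W) : G) * x)⁻¹ =
        x * ((b : W) : G) * x⁻¹ * (x⁻¹ * ((b : W) : G) * x)⁻¹ := congrArg Subtype.val e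
    set d := ((b : W) : G)⁻¹ * ((a : W) : G) with hd
    have hdW : d ∈ W := W.mul_mem (W.inv_mem (b : W).2) (a : W).2
    have h3 : x * d * x⁻¹ = x⁻¹ * d * x := by
      have hc : Commute ((x⁻¹ * ((b : W) : G) * x)⁻¹) (x⁻¹ * ((a : W) : G) * x) :=
        hab _ (U.inv_mem (hWU (hWx _ (b : W).2).2)) _ (hWU (hWx _ (a : W).2).2)
      calc x * d * x⁻¹ = (x * ((b : W) : G) * x⁻¹)⁻¹ *
            (x * ((a : W) : G) * x⁻¹ * (x⁻¹ * ((a : W) : G) * x)⁻¹) * (x⁻¹ * ((a : W) : G) * x) := by
            rw [hd]; group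
        _ = (x⁻¹ * ((b : W) : G) * x)⁻¹ * (x⁻¹ * ((a : W) : G) * x) := by rw [e']; group
        _ = x⁻¹ * d * x := by rw [hd]; group
    have h4 : Commute (x ^ 2) d := by
      show x ^ 2 * d = d * x ^ 2
      calc x ^ 2 * d = x * (x * d * x⁻¹) * x := by rw [pow_two]; group
        _ = x * (x⁻¹ * d * x) * x := by rw [h3]
        _ = d * x ^ 2 := by rw [pow_two]; group
    obtain ⟨k, hk⟩ := exists_sq_pow_eq hx.1
    exact Subtype.ext (Subtype.ext
      (inv_mul_eq_one.1 (hfix d hdW (hk ▸ h4.pow_left k))).symm)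
  have hker : Nat.card ρ.ker ≤ m.factorial := (Nat.card_le_card_of_injective ψ hψ).trans hA
  rw [ρ.ker.card_eq_card_quotient_mul_card_subgroup,
    Nat.card_congr (QuotientGroup.quotientKerEquivRange ρ).toEquiv]
  exact Nat.mul_le_mul hρ hker

omit [Finite G] in
theorem characteristic_of_subgroupOf {A Q : Subgroup G} [hQ : Q.Characteristic] (hAQ : A ≤ Q)
    (hA : (A.subgroupOf Q).Characteristic) : A.Characteristic := by
  refine Subgroup.characteristic_iff_le_comap.2 fun φ a ha => ?_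
  let ψ : Q ≃* Q := (φ.subgroupMap Q).trans (MulEquiv.subgroupCongr
    (Subgroup.characteristic_iff_map_eq.1 hQ φ))
  exact Subgroup.characteristic_iff_le_comap.1 hA ψ (x := ⟨a, hAQ ha⟩) ha

/-- The bound for an abelian normal invariant `2`-subgroup. -/
def abBound (m : ℕ) : ℕ := (m.factorial * m.factorial) ^ m

theorem card_commutator_abelian_le (h : Good α) {m : ℕ} (hm : Nat.card (invSet α) ≤ m)
    (U : Subgroup G) [U.Normal] (hU : Invar α U) (hab : ∀ a ∈ U, ∀ b ∈ U, Commute a b)
    (h2 : IsPGroup 2 U) : Nat.card (⁅U, (⊤ : Subgroup G)⁆ : Subgroup G) ≤ abBound m :=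
  card_commutator_le_pow_of_abelian U hab h.gen
    (fun _ hx => card_range_commHom_le h hm U hU hab h2 hx) hm
    (Nat.mul_pos (Nat.factorial_pos m) (Nat.factorial_pos m))

/-- `⁅W, G⁆ = ⁅W, G, G⁆` for a normal `2`-subgroup `W`. -/
theorem commutator_le_commutator_commutator (h : Good α) (W : Subgroup G) [W.Normal]
    (h2 : IsPGroup 2 W) :
    ⁅W, (⊤ : Subgroup G)⁆ ≤ ⁅⁅W, (⊤ : Subgroup G)⁆, (⊤ : Subgroup G)⁆ := by
  set Y := ⁅⁅W, (⊤ : Subgroup G)⁆, (⊤ : Subgroup G)⁆ with hY
  have : Y.Normal := Subgroup.commutator_normal _ _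
  refine commutator_le_of_gens W Y
    ((Subgroup.commutator_le_left _ _).trans (Subgroup.commutator_le_left _ _)) h.gen ?_
  intro w hw x hx
  set f := QuotientGroup.mk' Y with hf
  have hcen : ∀ g, Commute g (f ⁅w, x⁆) := by
    intro g
    obtain ⟨g, rfl⟩ := QuotientGroup.mk'_surjective Y g
    refine (commutatorElement_eq_one_iff_commute.1 ?_).symm
    rw [← map_commutatorElement]
    exact (QuotientGroup.eq_one_iff _).2 (Subgroup.commutator_mem_commutator
      (Subgroup.commutator_mem_commutator hw (mem_top _)) (mem_top _))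
  obtain ⟨j, hj⟩ := h2 ⟨⁅w, x⁆, Subgroup.commutator_le_left W ⊤
    (Subgroup.commutator_mem_commutator hw (mem_top x))⟩
  refine (QuotientGroup.eq_one_iff _).1 ?_
  show f ⁅w, x⁆ = 1
  exact eq_one_of_comm_fixed (hx.1.of_dvd_nat (orderOf_map_dvd f x)) (map_commutatorElement f w x)
    (hcen _) (by rw [← map_pow, show ⁅w, x⁆ ^ 2 ^ j = 1 from congrArg Subtype.val hj,
      map_one])

/-- The recursion bound. -/
def stepBound (b m : ℕ) : ℕ := b * commBound (abBound m) m

theorem one_le_stepBound {b : ℕ} (hb : 1 ≤ b) (m : ℕ) : 1 ≤ stepBound b m := by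
  refine Nat.mul_pos hb (Nat.mul_pos ?_ ?_)
  · exact (Nat.one_le_pow _ _ (Nat.one_le_pow _ _
      (Nat.mul_pos (Nat.pow_pos (Nat.mul_pos (Nat.factorial_pos m) (Nat.factorial_pos m)))
        (Nat.pow_pos (Nat.mul_pos (Nat.factorial_pos m) (Nat.factorial_pos m))))))
  · exact Nat.pow_pos (Nat.pow_pos (Nat.mul_pos (Nat.factorial_pos m) (Nat.factorial_pos m)))

/-- Bounds pass from a normal subgroup `N` of a `2`-group `W` with abelian quotient to `W`. -/
theorem card_commutator_step (h : Good α) {m : ℕ} (hm : Nat.card (invSet α) ≤ m)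
    (W N : Subgroup G) [W.Normal] [N.Normal] (hW : Invar α W) (hN : Invar α N)
    (h2 : IsPGroup 2 W) (hab : ⁅W, W⁆ ≤ N) {b : ℕ}
    (hb : Nat.card (⁅N, (⊤ : Subgroup G)⁆ : Subgroup G) ≤ b) :
    Nat.card (⁅W, (⊤ : Subgroup G)⁆ : Subgroup G) ≤ stepBound b m := by
  set M := ⁅N, (⊤ : Subgroup G)⁆ with hM
  have hMn : M.Normal := Subgroup.commutator_normal _ _
  have hMi : Invar α M := hN.commutator invar_top
  have h' := h.quot M hMi
  set f := QuotientGroup.mk' M with hf
  have hsur : Function.Surjective f := QuotientGroup.mk'_surjective M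
  have : (N.map f).Normal := Subgroup.Normal.map inferInstance f hsur
  have : (W.map f).Normal := Subgroup.Normal.map inferInstance f hsur
  have hcen : N.map f ≤ center (G ⧸ M) := by
    rintro _ ⟨n, hn, rfl⟩
    refine mem_center_iff.2 fun g => ?_
    obtain ⟨g, rfl⟩ := hsur g
    refine (commutatorElement_eq_one_iff_commute.1 ?_).symm.eq
    rw [← map_commutatorElement]
    exact (QuotientGroup.eq_one_iff _).2 (Subgroup.commutator_mem_commutator hn (mem_top g))
  have hNi : Invar (qAut α h.invol M hMi) (N.map f) := hN.map_quot h.invol hMi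
  have hWi : Invar (qAut α h.invol M hMi) (W.map f) := hW.map_quot h.invol hMi
  have h'' := h'.quot (N.map f) hNi
  set g := QuotientGroup.mk' (N.map f) with hg
  have hsur' : Function.Surjective g := QuotientGroup.mk'_surjective _
  have : ((W.map f).map g).Normal := Subgroup.Normal.map inferInstance g hsur'
  have hm' := (h.card_invSet_quot_le M hMi).trans hm
  have h1 : Nat.card (⁅(W.map f).map g, (⊤ : Subgroup ((G ⧸ M) ⧸ N.map f))⁆ : Subgroup ((G ⧸ M) ⧸ N.map f)) ≤ abBound m := by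
    refine card_commutator_abelian_le h'' ((h'.card_invSet_quot_le _ hNi).trans hm') _
      (hWi.map_quot h'.invol hNi) ?_ ((h2.map f).map g)
    rintro _ ⟨a, ha, rfl⟩ _ ⟨c, hc, rfl⟩
    rw [← commutatorElement_eq_one_iff_commute, ← map_commutatorElement]
    refine (QuotientGroup.eq_one_iff _).2 ?_
    obtain ⟨a, ha', rfl⟩ := ha
    obtain ⟨c, hc', rfl⟩ := hc
    exact ⟨⁅a, c⁆, hab (Subgroup.commutator_mem_commutator ha' hc'), map_commutatorElement _ _ _⟩
  have h3 : Nat.card (⁅⁅W.map f, (⊤ : Subgroup (G ⧸ M))⁆, (⊤ : Subgroup (G ⧸ M))⁆ : Subgroup (G ⧸ M))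
      ≤ commBound (abBound m) m := by
    refine card_commutator_le _ h'.gen (N.map f) hcen ?_ hm'
    rwa [Subgroup.map_commutator, Subgroup.map_top_of_surjective _ hsur']
  have h4 := commutator_le_commutator_commutator h' (W.map f) (h2.map f)
  refine (card_le_of_map M _).trans ?_
  rw [Subgroup.map_commutator, Subgroup.map_top_of_surjective _ hsur, stepBound, mul_comm b]
  exact Nat.mul_le_mul ((Subgroup.card_le_of_le h4).trans h3) hb

/-- The bound for a normal `2`-subgroup of derived length at most three. -/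
def solBound (m : ℕ) : ℕ := stepBound (stepBound (abBound m) m) m

theorem card_commutator_solvable_le (h : Good α) {m : ℕ} (hm : Nat.card (invSet α) ≤ m)
    (W : Subgroup G) [W.Normal] (hW : Invar α W) (h2 : IsPGroup 2 W)
    (h3 : ⁅⁅⁅W, W⁆, ⁅W, W⁆⁆, ⁅⁅W, W⁆, ⁅W, W⁆⁆⁆ = ⊥) :
    Nat.card (⁅W, (⊤ : Subgroup G)⁆ : Subgroup G) ≤ solBound m := by
  set W1 := ⁅W, W⁆ with hW1
  set W2 := ⁅W1, W1⁆ with hW2
  have : W1.Normal := Subgroup.commutator_normal _ _
  have : W2.Normal := Subgroup.commutator_normal _ _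
  have h1i : Invar α W1 := hW.commutator hW
  have h2i : Invar α W2 := h1i.commutator h1i
  have hle1 : W1 ≤ W := Subgroup.commutator_le_left W W
  have hle2 : W2 ≤ W1 := Subgroup.commutator_le_left W1 W1
  refine card_commutator_step h hm W W1 hW h1i h2 le_rfl
    (card_commutator_step h hm W1 W2 h1i h2i (h2.to_le hle1) le_rfl
      (card_commutator_abelian_le h hm W2 h2i (fun a ha b hb =>
        commutatorElement_eq_one_iff_commute.1 (mem_bot.1
          (h3 ▸ Subgroup.commutator_mem_commutator ha hb))) (h2.to_le (hle2.trans hle1))))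

/-- The bound for `⁅O₂(G), G⁆`. -/
def twoBound (m : ℕ) : ℕ := solBound m * commBound (abBound m).factorial m

theorem card_centralizer_index_le (B H : Subgroup G) [B.Normal] [H.Normal] :
    Nat.card (H.map (QuotientGroup.mk' (H ⊓ centralizer (B : Set G)))) ≤ (Nat.card B).factorial := by
  classical
  rw [← Nat.card_perm]
  set K := H ⊓ centralizer (B : Set G) with hK
  set f := QuotientGroup.mk' K with hf
  have hsec : ∀ q : H.map f, ∃ g : G, g ∈ H ∧ f g = q := fun q => q.2
  choose r hrH hr using hsec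
  refine Nat.card_le_card_of_injective
    (fun q => (MulAut.conjNormal (H := B) (r q)).toEquiv) fun q q' e => ?_
  have hmem : (r q)⁻¹ * r q' ∈ K := by
    refine ⟨H.mul_mem (H.inv_mem (hrH q)) (hrH q'), mem_centralizer_iff.2 fun c hc => ?_⟩
    have e1 := congrArg (fun σ : B ≃ B => ((σ ⟨c, hc⟩ : B) : G)) e
    simp only [MulEquiv.toEquiv_eq_coe, EquivLike.coe_coe, MulAut.conjNormal_apply] at e1
    calc c * ((r q)⁻¹ * r q') = (r q)⁻¹ * (r q * c * (r q)⁻¹) * r q' := by group
      _ = (r q)⁻¹ * (r q' * c * (r q')⁻¹) * r q' := by rw [e1]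
      _ = (r q)⁻¹ * r q' * c := by group
  have h1 : f ((r q)⁻¹ * r q') = 1 := (QuotientGroup.eq_one_iff _).2 hmem
  rw [map_mul, map_inv, hr, hr, inv_mul_eq_one] at h1
  exact Subtype.ext h1

theorem isPGroup_pCore_two : IsPGroup 2 (Cfsg.pCore 2 G) := Constrained.isPGroup_pCore

theorem card_commutator_pCore_le (h : Good α) {m : ℕ} (hm : Nat.card (invSet α) ≤ m) :
    Nat.card (⁅Cfsg.pCore 2 G, (⊤ : Subgroup G)⁆ : Subgroup G) ≤ twoBound m := by
  set Q := Cfsg.pCore 2 G with hQ
  have hQc : Q.Characteristic := LocalP.pCore_characteristic 2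
  obtain ⟨A, hAQ, hAc, -, hAA, hQA, hQAc, -⟩ := SectionFunctors.exists_critical_pCore 2 G
  have hQi : Invar α Q := invar_char
  have hAch : A.Characteristic := characteristic_of_subgroupOf (Q := Q) hAQ hAc
  have hAn : A.Normal := inferInstance
  have hAi : Invar α A := invar_char
  set ZC := A ⊓ centralizer (A : Set G) with hZC
  have hZCi : Invar α ZC := hAi.inf (invar_centralizer h.invol hAi)
  have h2Q : IsPGroup 2 Q := isPGroup_pCore_two
  set B := ⁅ZC, (⊤ : Subgroup G)⁆ with hB
  have hBc : Nat.card B ≤ abBound m := card_commutator_abelian_le h hm ZC hZCi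
    (fun a ha b hb => (mem_centralizer_iff.1 ha.2 b hb.1).symm) (h2Q.to_le (inf_le_left.trans hAQ))
  have hBn : B.Normal := Subgroup.commutator_normal _ _
  have hBi : Invar α B := hZCi.commutator invar_top
  set W0 := ⁅Q, (⊤ : Subgroup G)⁆ with hW0
  have hW0n : W0.Normal := Subgroup.commutator_normal _ _
  have hW0Q : W0 ≤ Q := Subgroup.commutator_le_left Q ⊤
  have hW0i : Invar α W0 := hQi.commutator invar_top
  set W1 := W0 ⊓ centralizer (B : Set G) with hW1
  have hW1i : Invar α W1 := hW0i.inf (invar_centralizer h.invol hBi)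
  -- the derived series of `W1`
  have hle : ∀ {X Y : Subgroup G}, ⁅X, Y⁆ = ⊥ → X ≤ centralizer (Y : Set G) :=
    fun h => Subgroup.commutator_eq_bot_iff_le_centralizer.1 h
  have hd1 : ⁅⁅W1, W1⁆, ZC⁆ = ⊥ := by
    have hZW : ⁅⁅ZC, W1⁆, W1⁆ = ⊥ := by
      rw [← le_bot_iff]
      calc ⁅⁅ZC, W1⁆, W1⁆ ≤ ⁅B, centralizer (B : Set G)⁆ :=
            Subgroup.commutator_mono (Subgroup.commutator_mono le_rfl le_top) inf_le_right
        _ ≤ ⊥ := by
            rw [Subgroup.commutator_comm, le_bot_iff, Subgroup.commutator_eq_bot_iff_le_centralizer]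
    refine Subgroup.commutator_commutator_eq_bot_of_rotate ?_ ?_
    · rw [Subgroup.commutator_comm W1 ZC]; exact hZW
    · exact hZW
  set W2 := ⁅W1, W1⁆ with hW2
  have hW2Q : W2 ≤ Q := (Subgroup.commutator_le_left W1 W1).trans (inf_le_left.trans hW0Q)
  have hd2 : ⁅⁅W2, W2⁆, A⁆ = ⊥ := by
    have hAW : ⁅⁅A, W2⁆, W2⁆ = ⊥ := by
      rw [← le_bot_iff, ← hd1]
      calc ⁅⁅A, W2⁆, W2⁆ ≤ ⁅ZC, W2⁆ := by
            refine Subgroup.commutator_mono ?_ le_rfl
            rw [Subgroup.commutator_comm]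
            exact (Subgroup.commutator_mono hW2Q le_rfl).trans hQA
        _ = ⁅W2, ZC⁆ := Subgroup.commutator_comm _ _
    refine Subgroup.commutator_commutator_eq_bot_of_rotate ?_ ?_
    · rw [Subgroup.commutator_comm W2 A]; exact hAW
    · exact hAW
  have hd3 : ⁅⁅W2, W2⁆, ⁅W2, W2⁆⁆ = ⊥ := by
    have h1 : ⁅W2, W2⁆ ≤ ZC := by
      rw [← hQAc]
      exact le_inf ((Subgroup.commutator_le_left W2 W2).trans hW2Q) (hle hd2)
    refine le_bot_iff.1 ((Subgroup.commutator_mono h1 h1).trans ?_)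
    rw [le_bot_iff, Subgroup.commutator_eq_bot_iff_le_centralizer]
    exact fun a ha => mem_centralizer_iff.2 fun b hb => mem_centralizer_iff.1 ha.2 b hb.1
  have hM := card_commutator_solvable_le h hm W1 hW1i (h2Q.to_le (inf_le_left.trans hW0Q)) hd3
  set M := ⁅W1, (⊤ : Subgroup G)⁆ with hMdef
  have hMn : M.Normal := Subgroup.commutator_normal _ _
  have hMi : Invar α M := hW1i.commutator invar_top
  set f := QuotientGroup.mk' M with hf
  have hsur : Function.Surjective f := QuotientGroup.mk'_surjective M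
  have : (W1.map f).Normal := Subgroup.Normal.map inferInstance f hsur
  have : (W0.map f).Normal := Subgroup.Normal.map inferInstance f hsur
  have hcen : W1.map f ≤ center (G ⧸ M) := by
    rintro _ ⟨n, hn, rfl⟩
    refine mem_center_iff.2 fun g => ?_
    obtain ⟨g, rfl⟩ := hsur g
    refine (commutatorElement_eq_one_iff_commute.1 ?_).symm.eq
    rw [← map_commutatorElement]
    exact (QuotientGroup.eq_one_iff _).2 (Subgroup.commutator_mem_commutator hn (mem_top g))
  have hidx : Nat.card ((W0.map f).map (QuotientGroup.mk' (W1.map f))) ≤ (abBound m).factorial := by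
    have hle' : W1 ≤ (W1.map f).comap f := Subgroup.le_comap_map f W1
    refine le_trans ?_ ((card_centralizer_index_le B W0).trans (Nat.factorial_le hBc))
    rw [Subgroup.map_map, show (QuotientGroup.mk' (W1.map f)).comp f =
      (QuotientGroup.map W1 (W1.map f) f hle').comp (QuotientGroup.mk' W1) from rfl,
      ← Subgroup.map_map]
    exact Nat.card_le_card_of_surjective _ (MonoidHom.subgroupMap_surjective _ _)
  have h5 : Nat.card (⁅W0.map f, (⊤ : Subgroup (G ⧸ M))⁆ : Subgroup (G ⧸ M)) ≤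
      commBound (abBound m).factorial m :=
    card_commutator_le _ (h.quot M hMi).gen (W1.map f) hcen hidx
      ((h.card_invSet_quot_le M hMi).trans hm)
  have h6 : Nat.card (⁅W0, (⊤ : Subgroup G)⁆ : Subgroup G) ≤ twoBound m := by
    refine (card_le_of_map M _).trans ?_
    rw [Subgroup.map_commutator, Subgroup.map_top_of_surjective _ hsur, twoBound, mul_comm (solBound m)]
    exact Nat.mul_le_mul h5 hM
  exact (Subgroup.card_le_of_le (commutator_le_commutator_commutator h Q h2Q)).trans h6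

end CfsgLib.InvertedBound
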